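/-
`𝒞`-components of strongly quasithin groups.
-/
import Mathlib
import Cfsg.Agent.QT.C2
import Cfsg.Agent.SIG.PumpSize
import Cfsg.Agent.SIG.Schreier
import Cfsg.Agent.SIG.KGroup
import Cfsg.Agent.ODD.BG4b.Aut
import Cfsg.Agent.S0205
import Cfsg.Agent.S2910

set_option autoImplicit false

namespace CL.QT

open Cfsg Subgroup CL.Comp CL.MSS CL.Rank CL.SR
open scoped commutatorElement MatrixGroups

variable {G G' : Type*} [Group G] [Group G'] [Finite G]

theorem two_dvd_card {K : Subgroup G} (h : ¬ Group.IsSolvable K) : 2 ∣ Nat.card K := by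
  by_contra h2
  exact h (Cfsg.Agent.S0205.result (Nat.odd_iff.2 (by omega)))

theorem exists_card_four {K : Subgroup G} (hp : ⁅K, K⁆ = K) (h : ¬ Group.IsSolvable K) :
    ∃ A ≤ K, Nat.card A = 4 := by
  have h1 : _root_.commutator K = ⊤ := by
    have := subgroupOf_perfect hp le_rfl
    rwa [subgroupOf_self] at this
  obtain ⟨A, hA⟩ := Sylow.exists_subgroup_card_pow_prime 2 (n := 2)
    (four_dvd_card_of_perfect h1 (two_dvd_card h))
  exact ⟨A.map K.subtype, map_subtype_le A, by rw [card_map_of_injective K.subtype_injective, hA]; rfl⟩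

theorem exists_odd_prime_dvd {K : Subgroup G} (h : ¬ Group.IsSolvable K) :
    ∃ p : ℕ, p.Prime ∧ p ≠ 2 ∧ p ∣ Nat.card K := by
  by_contra hne
  push Not at hne
  refine h (isSolvable_of_isPGroup' (p := 2) (IsPGroup.iff_card.2 ⟨_, Nat.eq_prime_pow_of_unique_prime_dvd
    Nat.card_pos.ne' fun {d} hd hdv => ?_⟩))
  by_contra h2
  exact hne d hd h2 hdv

theorem exists_big_of_surj {U A : Type*} [Group U] [Group A] [Finite U] {f : U →* A}
    (hf : Function.Surjective f) {c : U} (hc : Nat.card U ≤ 2 * orderOf c) :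
    Nat.card A ≤ 2 * orderOf (f c) := by
  have h1 := (zpowers c).index_map_dvd hf
  have h2 := card_mul_index (zpowers c)
  have h3 := card_mul_index ((zpowers c).map f)
  rw [MonoidHom.map_zpowers] at h1 h3
  rw [Nat.card_zpowers] at h2 h3
  have h4 : (zpowers c).index ≤ 2 := by
    refine Nat.le_of_mul_le_mul_left ?_ (orderOf_pos c)
    rw [h2, mul_comm]
    exact hc
  have h5 := (Nat.le_of_dvd (Nat.pos_of_ne_zero index_ne_zero_of_finite) h1).trans h4
  rw [← h3, mul_comm]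
  exact Nat.mul_le_mul_right _ h5

theorem calC_eq_of_injective {p : ℕ} [Fact p.Prime] (hp2 : p ≠ 2)
    {φ : G →* GL (Fin 2) (ZMod p)} (hφ : Function.Injective φ) {L₁ L₂ : Subgroup G}
    (h₁ : L₁ ∈ calC G) (h₂ : L₂ ∈ calC G) : L₁ = L₂ := by
  by_contra hne
  set π := QuotientGroup.mk' (solvableRadical G) with hπ
  have c₁ := isComponent_map_rad h₁
  have c₂ := isComponent_map_rad h₂
  rw [← hπ] at c₁ c₂
  have hc : L₁.map π ≤ centralizer ((L₂.map π : Subgroup _) : Set _) :=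
    c₁.le_centralizer_of_ne c₂ fun he => hne (calC_map_inj h₁ h₂ _ ker_rad_solv he)
  obtain ⟨A₁, hA₁, e₁⟩ := exists_card_four c₁.commutator_self c₁.not_isSolvable
  obtain ⟨A₂, hA₂, e₂⟩ := exists_card_four c₂.commutator_self c₂.not_isSolvable
  have hcc : A₁ ≤ centralizer (A₂ : Set _) := hA₁.trans (hc.trans (Comp.centralizer_anti hA₂))
  have hn : A₁ ≤ normalizer (A₂ : Set _) := hcc.trans (centralizer_le_normalizer _)
  have hi : A₁ ⊓ A₂ = ⊥ := by
    refine le_bot_iff.1 ?_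
    rw [← comp_inf_centralizer_eq_bot (solvableRadical_quotient G) c₂]
    exact le_inf (inf_le_right.trans hA₂) (inf_le_left.trans (hA₁.trans hc))
  have hcard := card_sup_mul_card_inf_of_le_normalizer hn
  rw [hi, card_bot, e₁, e₂, mul_one] at hcard
  have hA : IsPGroup 2 ↥(A₁ ⊔ A₂) := IsPGroup.of_card (n := 4) (by rw [hcard]; rfl)
  obtain ⟨U, hU, hU2, hUA⟩ := exists_lift π (H := L₁ ⊔ L₂) hA
    (by rw [Subgroup.map_sup]; exact sup_le_sup hA₁ hA₂)
  have hdet : U.map φ ≤ (Matrix.GeneralLinearGroup.det).ker := by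
    refine (map_mono (hU.trans ?_)).trans (map_commutator_le_det (A := ⊤) (B := ⊤) φ)
    rw [← sup_perfect (calC_minP h₁).perf (calC_minP h₂).perf]
    exact commutator_mono le_top le_top
  obtain ⟨c, hc⟩ := exists_big_cyclic hp2 hdet (hU2.map φ)
  have h3 := exists_big_of_surj (f := (π.subgroupMap U).comp
    (U.equivMapOfInjective φ hφ).symm.toMonoidHom)
    ((π.subgroupMap_surjective U).comp (MulEquiv.surjective _)) hc
  set a := ((π.subgroupMap U).comp (U.equivMapOfInjective φ hφ).symm.toMonoidHom) c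
  have h4 : orderOf a ∣ 4 := by
    rw [← orderOf_coe, orderOf_dvd_iff_pow_eq_one]
    obtain ⟨x, hx, y, hy, hxy⟩ := (mem_sup_of_le_normalizer hn).1 (hUA.le a.2)
    have hx4 : x ^ 4 = 1 := by
      have := pow_card_eq_one' (x := (⟨x, hx⟩ : A₁))
      rw [e₁] at this
      exact congrArg Subtype.val this
    have hy4 : y ^ 4 = 1 := by
      have := pow_card_eq_one' (x := (⟨y, hy⟩ : A₂))
      rw [e₂] at this
      exact congrArg Subtype.val this
    have hxy' : Commute x y := (hcc hx y hy).symm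
    rw [← hxy, hxy'.mul_pow, hx4, hy4, one_mul]
  have h5 := Nat.le_of_dvd (by decide) h4
  have h6 : Nat.card (U.map π) = 4 * 4 := by rw [hUA, hcard]
  omega

theorem calC_le_ker_or {p : ℕ} [Fact p.Prime] (hp2 : p ≠ 2) (φ : G →* GL (Fin 2) (ZMod p))
    {L₁ L₂ : Subgroup G} (h₁ : L₁ ∈ calC G) (h₂ : L₂ ∈ calC G) (hne : L₁ ≠ L₂) :
    L₁ ≤ φ.ker ∨ L₂ ≤ φ.ker := by
  by_contra hc
  rw [not_or] at hc
  have n₁ : L₁.map φ.rangeRestrict ≠ ⊥ := by
    rw [Ne, Subgroup.map_eq_bot_iff, MonoidHom.ker_rangeRestrict]; exact hc.1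
  have n₂ : L₂.map φ.rangeRestrict ≠ ⊥ := by
    rw [Ne, Subgroup.map_eq_bot_iff, MonoidHom.ker_rangeRestrict]; exact hc.2
  have c₁ := calC_map h₁ φ.rangeRestrict_surjective n₁
  have he := calC_eq_of_injective hp2 φ.range.subtype_injective c₁
    (calC_map h₂ φ.rangeRestrict_surjective n₂)
  have hs := isSolvable_solvableRadical G
  refine (calC_minP c₁).not_le (isSolvable_map (solvableRadical G) φ.rangeRestrict) ?_
  refine (calC_minP c₁).perf.ge.trans ?_
  nth_rewrite 2 [he]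
  rw [← Subgroup.map_commutator]
  exact map_mono (calC_commutator_le_rad h₁ h₂ hne)

theorem perfect_le_of_coprime {p : ℕ} [Fact p.Prime] {J N : Subgroup G} [N.Normal]
    (hJ : ⁅J, J⁆ = J) (h : ∀ g ∈ J, (orderOf g).Coprime p → g ∈ N) : J ≤ N := by
  refine perfect_le_of_quot hJ (isSolvable_of_isPGroup' (p := p) fun x => ?_)
  obtain ⟨g, rfl⟩ := QuotientGroup.mk_surjective x
  obtain ⟨k, m, hm, he⟩ := Nat.exists_eq_pow_mul_and_not_dvd (orderOf_pos (g : G)).ne' p
    (Fact.out : p.Prime).ne_one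
  refine ⟨k, ?_⟩
  rw [← QuotientGroup.mk_pow, QuotientGroup.eq_one_iff, mem_subgroupOf]
  refine h _ (pow_mem g.2 _) (Nat.Coprime.coprime_dvd_left (orderOf_dvd_of_pow_eq_one (n := m) ?_)
    ((Nat.Prime.coprime_iff_not_dvd Fact.out).2 hm).symm)
  rw [SubgroupClass.coe_pow, ← pow_mul, ← he, pow_orderOf_eq_one]

/-- in a strongly quasithin group with `O₂ = 1`, one of two `𝒞`-components centralizes `O_p` -/
theorem calC_centralizes_or (hG : IsStronglyQuasithin G) (h2 : pCore 2 G = ⊥)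
    {L₁ L₂ : Subgroup G} (h₁ : L₁ ∈ calC G) (h₂ : L₂ ∈ calC G) (hne : L₁ ≠ L₂) (p : ℕ)
    [hp : Fact p.Prime] :
    L₁ ≤ centralizer (pCore p G : Set G) ∨ L₂ ≤ centralizer (pCore p G : Set G) := by
  by_cases hp2 : p = 2
  · subst hp2
    rw [h2]
    exact Or.inl (le_centralizer_comm.1 bot_le)
  obtain ⟨φ, hφ⟩ := exists_rep hp2 (hG p hp.out hp2)
  rcases calC_le_ker_or hp2 φ h₁ h₂ hne with h | h
  · exact Or.inl (perfect_le_of_coprime (calC_minP h₁).perf fun g hg => hφ g (h hg))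
  · exact Or.inr (perfect_le_of_coprime (calC_minP h₂).perf fun g hg => hφ g (h hg))

theorem le_centralizer_fitting {A : Subgroup G}
    (h : ∀ (p : ℕ) [Fact p.Prime], A ≤ centralizer (pCore p G : Set G)) :
    A ≤ centralizer (fittingSubgroup G : Set G) := by
  rw [le_centralizer_comm, fittingSubgroup_eq_iSup_pCore]
  exact iSup_le fun p => le_centralizer_comm.1 (@h p (factPrime p))

theorem eq_bot_of_forall_le {W : Subgroup G} (h : ∀ (p : ℕ) [Fact p.Prime], W ≤ pPrimeCore p G) :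
    W = ⊥ := by
  by_contra hne
  obtain ⟨p, hp, hd⟩ := Nat.exists_prime_and_dvd (n := Nat.card W) (by rwa [Ne, card_eq_one])
  have := Fact.mk hp
  exact not_dvd_card_pPrimeCore p G (hd.trans (card_dvd_of_le (h p)))

theorem calC_commute (hG : IsStronglyQuasithin G) (h2 : pCore 2 G = ⊥)
    {L₁ L₂ : Subgroup G} (h₁ : L₁ ∈ calC G) (h₂ : L₂ ∈ calC G) (hne : L₁ ≠ L₂) :
    ⁅L₁, L₂⁆ = ⊥ := by
  have l₁ : ⁅L₁, L₂⁆ ≤ L₁ := commutator_le_left_of_normalizes (calC_le_normalizer h₂ h₁)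
  have l₂ : ⁅L₁, L₂⁆ ≤ L₂ := commutator_le_right_of_normalizes (calC_le_normalizer h₁ h₂)
  have hF : ⁅L₁, L₂⁆ ≤ fittingSubgroup G := by
    refine (le_inf (calC_commutator_le_rad h₁ h₂ hne) (le_centralizer_fitting fun p _ => ?_)).trans
      rad_inf_centralizer_le
    rcases calC_centralizes_or hG h2 h₁ h₂ hne p with h | h
    exacts [l₁.trans h, l₂.trans h]
  have key : ∀ (p : ℕ) [Fact p.Prime] (L : Subgroup G), L ≤ centralizer (pCore p G : Set G) →
      ⁅⁅L₁, L₂⁆, L⁆ ≤ pPrimeCore p G := fun p _ L hL => by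
    refine (commutator_mono (hF.trans (fittingSubgroup_le_pCore_sup p)) le_rfl).trans
      (sup_commutator_le (by rw [normalizer_eq_top]; exact le_top)
        (by rw [normalizer_eq_top]; exact le_top) ?_ (commutator_le_left _ _))
    rw [commutator_eq_bot_iff_le_centralizer.2 (le_centralizer_comm.1 hL)]
    exact bot_le
  refine eq_bot_of_forall_le fun p _ => ?_
  rcases calC_centralizes_or hG h2 h₁ h₂ hne p with h | h
  · rw [commutator_comm]
    refine commutator_le_of_perfect (calC_minP h₁).perf ?_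
    rw [commutator_comm L₂]
    exact key p _ h
  · exact commutator_le_of_perfect (calC_minP h₂).perf (key p _ h)

theorem exists_noncentral {p : ℕ} [Fact p.Prime] (hp2 : p ≠ 2) {K : Subgroup G}
    (hK : IsQuasisimple K) (hd : p ∣ Nat.card K) :
    ∃ x ∈ K, x ^ p = 1 ∧ x ∉ centralizer (K : Set G) := by
  by_contra hne
  push Not at hne
  obtain ⟨P⟩ : Nonempty (Sylow p K) := inferInstance
  refine (Cfsg.Agent.S2910.result hp2 hd P ((closure_le _).2 fun x hx => ?_)).2 hK
  rw [SetLike.mem_coe, mem_center_iff]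
  intro g
  exact Subtype.ext (hne x x.2 (congrArg Subtype.val hx.2) g g.2)

omit [Finite G] in
theorem elemAb_zpowers_sup {p : ℕ} {x y : G} (hx : x ^ p = 1) (hy : y ^ p = 1) (h : Commute x y) :
    IsElementaryAbelian p (zpowers x ⊔ zpowers y) := by
  have hn : zpowers x ≤ normalizer ((zpowers y : Subgroup G) : Set G) := by
    refine le_trans ?_ (centralizer_le_normalizer _)
    rintro _ ⟨i, rfl⟩ _ ⟨j, rfl⟩
    exact (h.symm.zpow_zpow j i)
  have key : ∀ a ∈ zpowers x ⊔ zpowers y, ∃ i j : ℤ, a = x ^ i * y ^ j := fun a ha => by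
    obtain ⟨b, ⟨i, rfl⟩, e, ⟨j, rfl⟩, rfl⟩ := (mem_sup_of_le_normalizer hn).1 ha
    exact ⟨i, j, rfl⟩
  rw [isElementaryAbelian_iff]
  constructor
  · intro a ha b hb
    obtain ⟨i, j, rfl⟩ := key a ha
    obtain ⟨k, l, rfl⟩ := key b hb
    exact Commute.mul_left (Commute.mul_right ((Commute.refl x).zpow_zpow i k) (h.zpow_zpow i l))
      (Commute.mul_right (h.symm.zpow_zpow j k) ((Commute.refl y).zpow_zpow j l))
  · intro a ha
    obtain ⟨i, j, rfl⟩ := key a ha
    rw [(h.zpow_zpow i j).mul_pow, ← zpow_natCast, ← zpow_natCast, ← zpow_mul, ← zpow_mul,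
      mul_comm i, mul_comm j, zpow_mul, zpow_mul, zpow_natCast, zpow_natCast, hx, hy, one_zpow,
      one_zpow, one_mul]

/-- three commuting elements of order `p` are dependent in rank two -/
theorem mem_of_rank_two {p : ℕ} [Fact p.Prime] (h : PRankLE p 2 G) {x y z : G} (hx : x ^ p = 1)
    (hy : y ^ p = 1) (hz : z ^ p = 1) (hxy : Commute x y) (hxz : Commute x z) (hyz : Commute y z)
    (hx1 : x ≠ 1) (hy1 : y ∉ zpowers x) : z ∈ zpowers x ⊔ zpowers y := by
  have hE := elemAb_zpowers_sup hx hy hxy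
  refine mem_of_rank h hE (sq_le_card (A := zpowers x) (isPGroup_of_isElementaryAbelian hE)
    (by rwa [Ne, zpowers_eq_bot]) (lt_of_le_of_ne le_sup_left fun he => hy1 ?_)) hz ?_
  · rw [he]
    exact mem_sup_right (mem_zpowers y)
  · rw [← zpowers_le, le_centralizer_comm]
    refine sup_le ?_ ?_
    · rintro _ ⟨i, rfl⟩ _ ⟨j, rfl⟩
      exact (hxz.symm.zpow_zpow j i)
    · rintro _ ⟨i, rfl⟩ _ ⟨j, rfl⟩
      exact (hyz.symm.zpow_zpow j i)

section NonNormal

variable (hG : IsStronglyQuasithin G) (h2 : pCore 2 G = ⊥) {L : Subgroup G} (hL : L ∈ calC G)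
  {g : G} (hg : g ∉ normalizer (L : Set G))
include hG h2 hL hg

theorem nn_isComponent : IsComponent L := by
  refine isComponent_of_calC_of_centralizes hL (le_centralizer_fitting fun p _ => ?_)
  rcases calC_centralizes_or hG h2 hL (calC_conj hL g)
    (fun he => hg (mem_normalizer_iff_conj.2 he.symm)) p with h | h
  · exact h
  · have := le_cj_iff.1 (le_of_le_of_eq h (cj_eq_of_normal g _).symm)
    rwa [inv_cj_cj] at this

theorem nn_commute {x y : G} (hx : x ∈ L) (hy : y ∈ L) : Commute x (g * y * g⁻¹) :=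
  ((commutator_eq_bot_iff_le_centralizer.1
    ((nn_isComponent hG h2 hL hg).commutator_conj_eq_bot hg)) hx _ (conj_mem_cj hy)).symm

theorem nn_center : L ⊓ centralizer (L : Set G) = ⊥ := by
  have hK := nn_isComponent hG h2 hL hg
  by_contra hne
  obtain ⟨p, hp, hd⟩ := Nat.exists_prime_and_dvd (n := Nat.card ↥(L ⊓ centralizer (L : Set G)))
    (by rwa [Ne, card_eq_one])
  have := Fact.mk hp
  obtain ⟨z, hz⟩ := exists_prime_orderOf_dvd_card' p hd
  have hz1 : (z : G) ≠ 1 := fun h => by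
    rw [show z = 1 from Subtype.ext h, orderOf_one] at hz
    exact hp.ne_one hz.symm
  have hzp : (z : G) ^ p = 1 := by
    rw [← hz, ← orderOf_coe, pow_orderOf_eq_one]
  have hp2 : p ≠ 2 := by
    rintro rfl
    have := le_pCore_of_le_fittingSubgroup (p := 2) (zpowers_le.2 (hK.center_le_fitting z.2))
      (IsPGroup.of_card (n := 1) (by rw [Nat.card_zpowers, orderOf_coe, hz, pow_one]))
    rw [h2, zpowers_le] at this
    exact hz1 this
  obtain ⟨x, hx, hxp, hxc⟩ := exists_noncentral hp2 hK.isQuasisimple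
    (hd.trans (card_dvd_of_le inf_le_left))
  have h1 := mem_of_rank_two (hG p hp hp2) hzp hxp (z := g * x * g⁻¹)
    (by rw [conj_pow, hxp, mul_one, mul_inv_cancel]) (z.2.2 x hx).symm
    (nn_commute hG h2 hL hg z.2.1 hx) (nn_commute hG h2 hL hg hx hx) hz1
    (fun h => hxc (zpowers_le.2 z.2.2 h))
  have h3 : g * x * g⁻¹ ∈ L := sup_le (zpowers_le.2 z.2.1) (zpowers_le.2 hx) h1
  refine hxc fun y hy => ?_
  have h4 := (nn_commute hG h2 hL hg h3 hy).eq
  have h5 : g * (x * y) * g⁻¹ = g * (y * x) * g⁻¹ := by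
    calc g * (x * y) * g⁻¹ = g * x * g⁻¹ * (g * y * g⁻¹) := by group
      _ = g * y * g⁻¹ * (g * x * g⁻¹) := h4
      _ = g * (y * x) * g⁻¹ := by group
  exact (mul_left_cancel (mul_right_cancel h5)).symm

theorem nn_eq_one {x : G} (hx : x ∈ L) (h : g * x * g⁻¹ ∈ L) : x = 1 := by
  have h1 : g * x * g⁻¹ ∈ L ⊓ centralizer (L : Set G) :=
    ⟨h, fun y hy => (nn_commute hG h2 hL hg hy hx).eq⟩
  rw [nn_center hG h2 hL hg, mem_bot] at h1
  simpa using h1

theorem nn_rank (p : ℕ) (hp : p.Prime) (hp2 : p ≠ 2) : PRankLE p 1 L := by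
  have := Fact.mk hp
  rw [prankLE_subgroup_iff]
  intro A hA hAe
  by_contra hlt
  have h1 := BG.Sec4.pow_succ_le_card_of_lt (isPGroup_of_isElementaryAbelian hAe) (not_le.1 hlt)
  have h3 : A ≠ ⊥ := by
    rintro rfl
    exact hlt (by rw [card_bot]; exact Nat.one_le_pow _ _ hp.pos)
  obtain ⟨⟨x, hx⟩, hx1⟩ := ne_bot_iff_exists_ne_one.1 h3
  refine hx1 (Subtype.ext (nn_eq_one hG h2 hL hg (hA hx) (hA (mem_of_rank (hG p hp hp2) hAe h1
    (by rw [conj_pow, hAe.2 x hx, mul_one, mul_inv_cancel]) fun y hy => ?_))))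
  exact (nn_commute hG h2 hL hg (hA hy) (hA hx)).eq

theorem nn_index : (normalizer (L : Set G)).index = 2 := by
  have hK := nn_isComponent hG h2 hL hg
  refine index_eq_two_iff_exists_notMem_and'.2 ⟨g⁻¹, by rwa [inv_mem_iff], fun b => ?_⟩
  by_contra hne
  rw [not_or] at hne
  obtain ⟨p, hp, hp2, hd⟩ := exists_odd_prime_dvd hK.not_isSolvable
  have := Fact.mk hp
  obtain ⟨x, hx, hxp, hxc⟩ := exists_noncentral hp2 hK.isQuasisimple hd
  have hx1 : x ≠ 1 := fun h => hxc (h ▸ one_mem _)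
  have hc : ∀ y ∈ L, ∀ z ∈ L, Commute (g * y * g⁻¹) (b * z * b⁻¹) := fun y hy z hz => by
    have := (nn_commute hG h2 hL hne.1 hy hz).map (MulAut.conj g).toMonoidHom
    simpa [mul_assoc] using this
  have h1 := mem_of_rank_two (hG p hp hp2) hxp (y := g * x * g⁻¹) (z := b * x * b⁻¹)
    (by rw [conj_pow, hxp, mul_one, mul_inv_cancel])
    (by rw [conj_pow, hxp, mul_one, mul_inv_cancel]) (nn_commute hG h2 hL hg hx hx)
    (nn_commute hG h2 hL hne.2 hx hx) (hc x hx x hx) hx1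
    (fun h => hx1 (nn_eq_one hG h2 hL hg hx (zpowers_le.2 hx h)))
  refine hxc fun y hy => ?_
  have h3 : zpowers x ⊔ zpowers (g * x * g⁻¹) ≤ centralizer {b * y * b⁻¹} := by
    refine sup_le (zpowers_le.2 ?_) (zpowers_le.2 ?_)
    · exact mem_centralizer_singleton_iff.2 (nn_commute hG h2 hL hne.2 hx hy).eq
    · exact mem_centralizer_singleton_iff.2 (hc x hx y hy).eq
  have h4 := mem_centralizer_singleton_iff.1 (h3 h1)
  have h5 : b * (x * y) * b⁻¹ = b * (y * x) * b⁻¹ := by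
    calc b * (x * y) * b⁻¹ = b * x * b⁻¹ * (b * y * b⁻¹) := by group
      _ = b * y * b⁻¹ * (b * x * b⁻¹) := h4
      _ = b * (y * x) * b⁻¹ := by group
  exact (mul_left_cancel (mul_right_cancel h5)).symm

theorem nn_simple : IsSimpleGroup L := by
  refine (nn_isComponent hG h2 hL hg).isQuasisimple.isSimpleGroup_of_center_eq_bot ?_
  have := nn_center hG h2 hL hg
  rwa [← map_center_subtype, Subgroup.map_eq_bot_iff_of_injective _ L.subtype_injective] at this

end NonNormal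

omit [Finite G] in
theorem exists_not_mem_normalizer {L : Subgroup G} (h : ¬ L.Normal) :
    ∃ g, g ∉ normalizer (L : Set G) := by
  by_contra hne
  push Not at hne
  exact h (normalizer_eq_top_iff.1 (eq_top_iff.2 fun g _ => hne g))

end CL.QT
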