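/-
Groups with an elementary abelian subgroup of order `r²` for some odd prime `r`.
-/
import Mathlib
import Cfsg.Agent.QT.C3

set_option autoImplicit false

namespace CL.QT

open Cfsg Subgroup CL.Comp CL.MSS CL.Rank
open scoped commutatorElement

/-- some odd prime has rank at least two -/
def NC (K : Type*) [Group K] : Prop := ∃ r : ℕ, r.Prime ∧ r ≠ 2 ∧ ¬ PRankLE r 1 K

namespace NC

variable {G G' Γ : Type*} [Group G] [Group G'] [Group Γ]

theorem of_injective (h : NC G) (f : G →* G') (hf : Function.Injective f) : NC G' :=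
  let ⟨r, h1, h2, h3⟩ := h
  ⟨r, h1, h2, fun h4 => h3 (prankLE_of_injective f hf h4)⟩

theorem of_equiv (h : NC G) (e : G' ≃* G) : NC G' := h.of_injective e.symm.toMonoidHom e.symm.injective

theorem of_subgroup {H : Subgroup G} (h : NC H) : NC G := h.of_injective _ H.subtype_injective

theorem of_le {H K : Subgroup G} (h : NC H) (hle : H ≤ K) : NC K :=
  h.of_injective _ (inclusion_injective hle)

theorem of_range_le (h : NC G) {f : G →* Γ} (hf : Function.Injective f) {j : G' →* Γ}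
    (hj : Function.Injective j) (hle : f.range ≤ j.range) : NC G' :=
  ((h.of_equiv (MonoidHom.ofInjective hf).symm).of_le hle).of_equiv (MonoidHom.ofInjective hj)

theorem of_card {r : ℕ} (hr : r.Prime) (h2 : r ≠ 2) {E : Subgroup G} (hE : IsElementaryAbelian r E)
    (hc : r < Nat.card E) : NC G :=
  ⟨r, hr, h2, fun h => absurd (h E hE.1 hE.2) (by rw [pow_one]; omega)⟩

variable [Finite G]

theorem of_pair {r : ℕ} (hr : r.Prime) (h2 : r ≠ 2) {x y : G} (hx : x ^ r = 1) (hy : y ^ r = 1)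
    (hc : Commute x y) (h1 : x ≠ 1) (h3 : y ∉ zpowers x) : NC G := by
  have := Fact.mk hr
  have hE := elemAb_zpowers_sup hx hy hc
  refine of_card hr h2 hE (lt_of_lt_of_le ?_ (sq_le_card (A := zpowers x)
    (isPGroup_of_isElementaryAbelian hE) (by rwa [Ne, zpowers_eq_bot])
    (lt_of_le_of_ne le_sup_left fun he => h3 (he ▸ mem_sup_right (mem_zpowers y)))))
  nlinarith [hr.one_lt]

theorem of_wit {r : ℕ} (hr : r.Prime) (h2 : r ≠ 2) {j : G →* Γ} (hj : Function.Injective j) {x y v : Γ}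
    (mx : x ∈ j.range) (my : y ∈ j.range) (hx : x ^ r = 1) (hy : y ^ r = 1) (hc : Commute x y)
    (h1 : x ≠ 1) (h3 : Commute x v) (h4 : ¬ Commute y v) : NC G := by
  obtain ⟨x, rfl⟩ := mx
  obtain ⟨y, rfl⟩ := my
  refine of_pair hr h2 (hj (by rw [map_pow, hx, map_one])) (hj (by rw [map_pow, hy, map_one]))
    (hj (by rw [map_mul, map_mul]; exact hc)) (fun h => h1 (by rw [h, map_one])) ?_
  rintro ⟨i, rfl⟩
  exact h4 (by rw [map_zpow]; exact h3.zpow_left i)

theorem of_not_isCyclic {r : ℕ} (hr : r.Prime) (h2 : r ≠ 2) {P : Subgroup G} (hP : IsPGroup r P)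
    (hc : ¬ IsCyclic P) : NC G := by
  have := Fact.mk hr
  obtain ⟨E, -, h3, h4⟩ := exists_p2 h2 hP hc
  exact of_card hr h2 h3 (by rw [h4]; nlinarith [hr.one_lt])

theorem of_not_commute {r : ℕ} (hr : r.Prime) (h2 : r ≠ 2) {P : Subgroup G} (hP : IsPGroup r P) {x y : G}
    (hx : x ∈ P) (hy : y ∈ P) (hc : ¬ Commute x y) : NC G :=
  of_not_isCyclic hr h2 hP fun _ => hc (congrArg Subtype.val (mul_comm' (⟨x, hx⟩ : P) ⟨y, hy⟩))

theorem of_disjoint {r : ℕ} (hr : r.Prime) (h2 : r ≠ 2) {P A B : Subgroup G} (hP : IsPGroup r P)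
    (hA : A ≤ P) (hB : B ≤ P) (h1 : A ≠ ⊥) (h3 : B ≠ ⊥) (h : A ⊓ B = ⊥) : NC G := by
  have := Fact.mk hr
  obtain ⟨a, ha⟩ := exists_prime_orderOf_dvd_card' r (dvd_card_of_isPGroup_le (hP.to_le hA) h1 le_rfl)
  obtain ⟨b, hb⟩ := exists_prime_orderOf_dvd_card' r (dvd_card_of_isPGroup_le (hP.to_le hB) h3 le_rfl)
  rw [← orderOf_coe] at ha hb
  by_cases hc : Commute (a : G) b
  · refine of_pair hr h2 (ha ▸ pow_orderOf_eq_one _) (hb ▸ pow_orderOf_eq_one _) hc
      (fun h4 => hr.ne_one (by rw [← ha, h4, orderOf_one])) fun h4 => ?_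
    have h5 : (b : G) ∈ A ⊓ B := ⟨zpowers_le.2 a.2 h4, b.2⟩
    rw [h, mem_bot] at h5
    exact hr.ne_one (by rw [← hb, h5, orderOf_one])
  · exact of_not_commute hr h2 hP (hA a.2) (hB b.2) hc

omit [Finite G] in
theorem of_hom (h : NC G) (f : G →* G') (hk : IsPGroup 2 f.ker) : NC G' := by
  obtain ⟨r, h1, h2, h3⟩ := h
  have := Fact.mk h1
  by_contra h4
  refine h3 fun E hE hE' => ?_
  have h5 : Function.Injective (f.comp E.subtype) := by
    rw [← MonoidHom.ker_eq_bot_iff, ← MonoidHom.comap_ker, comap_subtype, subgroupOf_eq_bot]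
    exact IsPGroup.disjoint_of_ne 2 r h2.symm _ _ hk (isPGroup_of_isElementaryAbelian ⟨hE, hE'⟩)
  by_contra h6
  refine h4 ((of_card (E := ⊤) h1 h2 ⟨⟨⟨fun a b => Subtype.ext (mul_comm' _ _)⟩⟩,
    fun a _ => Subtype.ext (hE' _ a.2)⟩ ?_).of_injective _ h5)
  rw [card_top]
  rw [pow_one] at h6
  omega

theorem of_surjective [Finite G'] (h : NC G') {f : G →* G'} (hf : Function.Surjective f) : NC G := by
  obtain ⟨r, h1, h2, h3⟩ := h
  have := Fact.mk h1
  by_contra h4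
  refine h3 fun E hE hE' => ?_
  have hE2 := isPGroup_of_isElementaryAbelian (⟨hE, hE'⟩ : IsElementaryAbelian r E)
  obtain ⟨P, -, h5, rfl⟩ := exists_lift f (H := ⊤) hE2 (le_top.trans (map_top_of_surjective f hf).ge)
  have : IsCyclic P := by_contra fun hc => h4 (of_not_isCyclic h1 h2 h5 hc)
  rw [pow_one]
  exact BG.Sec4.card_le_of_isCyclic_of_pow (isCyclic_of_surjective _ (f.subgroupMap_surjective P)) hE'

omit [Finite G] in
theorem of_index_two (h : NC G) {N : Subgroup G} (hN : N.index = 2) : NC N := by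
  obtain ⟨r, h1, h2, h3⟩ := h
  refine ⟨r, h1, h2, fun h4 => h3 fun E hE hE' => prankLE_subgroup_iff.1 h4 E (fun x hx => ?_) ⟨hE, hE'⟩⟩
  exact mem_of_pow_mem_of_pow_mem ((Nat.coprime_primes Nat.prime_two h1).2 h2.symm)
    (sq_mem_of_index_two hN x) (by rw [hE' x hx]; exact one_mem _)

theorem quot_center {r : ℕ} (hr : r.Prime) (h2 : r ≠ 2) {x y v w : G} (hx : x ^ r = 1) (hy : y ^ r = 1)
    (hc : ⁅x, y⁆ ∈ center G) (h1 : ¬ Commute x w) (h3 : Commute x v) (h4 : ¬ Commute y v) :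
    NC (G ⧸ center G) := by
  refine of_pair hr h2 (x := (x : G ⧸ center G)) (y := y) (by rw [← QuotientGroup.mk_pow, hx]; rfl)
    (by rw [← QuotientGroup.mk_pow, hy]; rfl) (commutatorElement_eq_one_iff_commute.1
      ((QuotientGroup.eq_one_iff ⁅x, y⁆).2 hc))
    (fun h => h1 (mem_center_iff.1 ((QuotientGroup.eq_one_iff x).1 h) w).symm) ?_
  rintro ⟨i, hi⟩
  have h5 : (x ^ i)⁻¹ * y ∈ center G := QuotientGroup.eq.1 hi
  rw [show y = x ^ i * ((x ^ i)⁻¹ * y) by group] at h4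
  exact h4 ((h3.zpow_left i).mul_left (mem_center_iff.1 h5 v).symm)

end NC

end CL.QT
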