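/-
Elementary abelian subgroups of odd rank two in groups with root elements.
-/
import Mathlib
import Cfsg.Agent.QT.K1
import Cfsg.Agent.CHEV.LieSyl
import Cfsg.Agent.CHEV.Opp

set_option autoImplicit false

namespace CL.QT

open Cfsg Subgroup CL.Chev CL.MSS

section tri

variable {G Γ : Type*} [Group G] [Group Γ]

/-- two involutions with product of order dividing three -/
structure Tri (a b : Γ) : Prop where
  l : a * a = 1
  r : b * b = 1
  c : (a * b) ^ 3 = 1

theorem Tri.mul {a b c d : Γ} (h : Tri a b) (h' : Tri c d) (ac : Commute a c) (ad : Commute a d)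
    (bc : Commute b c) (bd : Commute b d) : Tri (a * c) (b * d) :=
  ⟨by rw [← sq, ac.mul_pow, sq, sq, h.l, h'.l, mul_one], by rw [← sq, bd.mul_pow, sq, sq, h.r, h'.r, mul_one], by
    rw [show a * c * (b * d) = a * b * (c * d) by rw [mul_assoc, ← mul_assoc c, ← bc.eq]; simp only [mul_assoc],
      ((ac.mul_right ad).mul_left (bc.mul_right bd)).mul_pow, h.c, h'.c, mul_one]⟩

theorem Tri.eq_of_mul {a b : Γ} (h : Tri a b) (e : a * b = 1) : a = b := by
  rw [eq_inv_of_mul_eq_one_left e, inv_eq_of_mul_eq_one_left h.r]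

theorem Tri.eq_of_commute {a b : Γ} (h : Tri a b) (e : Commute a b) : a = b := by
  have h1 := h.c
  rw [pow_succ, e.mul_pow, sq, sq, h.l, h.r, one_mul, one_mul] at h1
  exact h.eq_of_mul h1

theorem NC.of_tri [Finite G] {j : G →* Γ} (hj : Function.Injective j) {a b c d : Γ} (h : Tri a b) (h' : Tri c d)
    (m1 : a * b ∈ j.range) (m2 : c * d ∈ j.range) (ac : Commute a c) (ad : Commute a d)
    (bc : Commute b c) (bd : Commute b d) : NC G ∨ a = b ∨ c = d := by
  by_contra! h0
  exact h0.1 (NC.of_wit Nat.prime_three (by decide) hj m2 m1 h'.c h.c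
    ((ac.mul_right ad).mul_left (bc.mul_right bd)).symm (fun e => h0.2.2 (h'.eq_of_mul e)) (ac.mul_right ad).symm
    fun e => h0.2.1 (h.eq_of_commute (mul_left_cancel (a := a) (by rw [← mul_assoc, ← mul_assoc, e.eq, mul_assoc]))))

theorem NC.of_add [Finite G] {F : Type*} [Field F] {p : ℕ} (hp : p.Prime) (h2 : p ≠ 2) [CharP F p] {j : G →* Γ}
    (hj : Function.Injective j) {φ : F → Γ} (hφ : ∀ t u, φ (t + u) = φ t * φ u) (h0 : ∀ t, φ t = 1 → t = 0)
    (hm : ∀ t, φ t ∈ j.range) {w : F} (hw : ∀ n : ℤ, w ≠ n) : NC G := by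
  let ψ : Multiplicative F →* Γ := MonoidHom.mk' (fun t => φ t.toAdd) fun t u => hφ _ _
  have h1 : ∀ (t : F) (n : ℤ), φ t ^ n = φ (n * t) := fun t n => by
    have := map_zpow ψ (Multiplicative.ofAdd t) n
    rw [← ofAdd_zsmul, zsmul_eq_mul] at this
    exact this.symm
  have h3 : ∀ t, φ t ^ p = 1 := fun t => by
    rw [← zpow_natCast, h1, Int.cast_natCast, CharP.cast_eq_zero, zero_mul]
    exact map_one ψ
  obtain ⟨x, hx⟩ := hm 1
  obtain ⟨y, hy⟩ := hm w
  refine NC.of_pair hp h2 (x := x) (y := y) (hj (by rw [map_pow, hx, h3, map_one]))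
    (hj (by rw [map_pow, hy, h3, map_one])) (hj (by rw [map_mul, map_mul, hx, hy, ← hφ, ← hφ, add_comm]))
    (fun e => one_ne_zero (h0 1 (by rw [← hx, e, map_one]))) ?_
  rintro ⟨n, rfl⟩
  rw [map_zpow, hx, h1, mul_one] at hy
  refine hw n (sub_eq_zero.1 (h0 _ (mul_right_cancel (b := φ n) ?_)))
  rw [← hφ, sub_add_cancel, one_mul, hy]

end tri

variable {ι κ κ' : Type*} [Fintype κ] [DecidableEq κ] {R : RootSys ι κ} {F G G' : Type*} [Field F] [Group G]
  [Group G'] {S : StData R F G} {T : S.Twist κ'}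

/-- the identity or the negation of roots -/
def Sg (R : RootSys ι κ) (e : ι → ι) : Prop := e = id ∨ e = R.neg

theorem sg_id : Sg R id := .inl rfl

theorem sg_neg : Sg R R.neg := .inr rfl

/-- the root elements of `±r` and `±s` commute -/
def Orth (S : StData R F G) (r s : ι) : Prop :=
  ∀ e f, Sg R e → Sg R f → Commute (S.x (e r) 1) (S.x (f s) 1)

theorem Orth.symm {r s : ι} (h : Orth S r s) : Orth S s r := fun e f he hf => (h f e hf he).symm

theorem orth_simple {i j : κ} (hij : i ≠ j) (h : R.A i j = 0) : Orth S (R.simple i) (R.simple j) := by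
  have k : ∀ e, Sg R e → ∀ i, S.x (e (R.simple i)) 1 ∈ S.XS (R.sub {i}) := by
    rintro _ (rfl | rfl) i
    exacts [S.x_mem_XS (R.simple_mem_sub_self i) _, S.x_mem_XS (R.neg_mem_sub_self i) _]
  exact fun e f he hf => StData.commute_orth hij h (k e he i) (k f hf j)

theorem orth_long {r s : ι} (hr : R.Long r) (h : R.pair r s = 0) : Orth S r s := by
  rintro _ _ (rfl | rfl) (rfl | rfl) <;> refine S.commute_of_noComb (RootSys.Long.noComb ?_ ?_) _ _ <;>
    first | exact hr | exact hr.neg | simp [R.pair_neg_left, R.pair_neg_right, h]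

/-- product of root elements -/
def pa (S : StData R F G) (e : ι → ι) (L : List ι) : G := (L.map fun r => S.x (e r) 1).prod

theorem pa_cons (e : ι → ι) (r : ι) (L : List ι) : pa S e (r :: L) = S.x (e r) 1 * pa S e L := rfl

theorem commute_pa {L M : List ι} (h : ∀ r ∈ L, ∀ s ∈ M, Orth S r s) {e f : ι → ι} (he : Sg R e) (hf : Sg R f) :
    Commute (pa S e L) (pa S f M) :=
  Commute.list_prod_left _ _ fun _ ha => Commute.list_prod_right _ _ fun _ hb => by
    obtain ⟨r, hr, rfl⟩ := List.mem_map.1 ha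
    obtain ⟨s, hs, rfl⟩ := List.mem_map.1 hb
    exact h r hr s hs e f he hf

theorem commute_x_pa {r : ι} {M : List ι} (h : ∀ s ∈ M, Orth S r s) {e f : ι → ι} (he : Sg R e) (hf : Sg R f) :
    Commute (S.x (e r) 1) (pa S f M) := by
  simpa [pa] using commute_pa (S := S) (L := [r]) (M := M) (by simpa using h) he hf

theorem pa_mem {e : ι → ι} {L : List ι} {A : Set ι} (h : ∀ r ∈ L, e r ∈ A) : pa S e L ∈ S.XS A :=
  Subgroup.list_prod_mem _ fun _ ha => by
    obtain ⟨r, hr, rfl⟩ := List.mem_map.1 ha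
    exact S.x_mem_XS (h r hr) _

theorem pa_ne (hS : S.Good) [Finite ι] {r : ι} {L : List ι} (h : ∀ s ∈ L, Orth S r s) : pa S id (r :: L) ≠ 1 :=
  fun e => by
    have h1 := (commute_x_pa h sg_neg sg_id).inv_right
    rw [← eq_inv_of_mul_eq_one_left ((pa_cons id r L).symm.trans e)] at h1
    exact hS.not_commute_neg r one_ne_zero one_ne_zero h1.symm

section two

variable [CharP F 2]

theorem map_x_one (T : S.Twist κ') (r : ι) : T.σ (S.x r 1) = S.x (T.ρ r) 1 := by
  obtain ⟨j, ε, hε, e⟩ := T.exists_map_x r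
  rw [e, map_one, mul_one]
  rcases hε with rfl | rfl
  exacts [rfl, by rw [CharTwo.neg_eq]]

theorem map_x_sg (T : S.Twist κ') {e : ι → ι} (he : Sg R e) (r : ι) : T.σ (S.x (e r) 1) = S.x (e (T.ρ r)) 1 := by
  rcases he with rfl | rfl
  exacts [map_x_one T r, by rw [map_x_one, T.ρ_neg]]

theorem Orth.map (T : S.Twist κ') {r s : ι} (h : Orth S r s) : Orth S (T.ρ r) (T.ρ s) := fun e f he hf => by
  rw [← map_x_sg T he, ← map_x_sg T hf]
  exact (h e f he hf).map _

theorem tri_root (r : ι) : Tri (S.x r 1) (S.x (R.neg r) 1) := by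
  have h1 : ∀ r, S.x r 1 * S.x r 1 = 1 := fun r => by rw [← S.x_add, CharTwo.add_self_eq_zero, S.x_zero]
  refine ⟨h1 r, h1 _, ?_⟩
  have h2 := S.n_conj_self r one_ne_zero 1
  simp only [StData.n, inv_one, CharTwo.neg_eq, one_pow, mul_one, mul_inv_rev,
    inv_eq_of_mul_eq_one_left (h1 _)] at h2
  rw [mul_assoc _ (S.x r 1) (S.x r 1), h1, mul_one] at h2
  rw [← h1 (R.neg r)]
  conv_rhs => lhs; rw [← h2]
  simp only [pow_succ, pow_zero, one_mul, mul_assoc]

theorem tri_pa {L : List ι} (h : L.Pairwise (Orth S)) : Tri (pa S id L) (pa S R.neg L) := by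
  induction L with
  | nil => exact ⟨one_mul _, one_mul _, by simp [pa]⟩
  | cons r L ih =>
    rw [List.pairwise_cons] at h
    exact (tri_root r).mul (ih h.2) (commute_x_pa h.1 sg_id sg_id) (commute_x_pa h.1 sg_id sg_neg)
      (commute_x_pa h.1 sg_neg sg_id) (commute_x_pa h.1 sg_neg sg_neg)

theorem pa_fix {L : List ι} (h : L.Pairwise (Orth S)) (hρ : (L.map T.ρ).Perm L) {e : ι → ι} (he : Sg R e) :
    pa S e L ∈ T.Fix := by
  rw [T.mem_Fix, pa, map_list_prod, List.map_map]
  refine Eq.trans ?_ ((hρ.symm.map fun r => S.x (e r) 1).prod_eq'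
    (List.pairwise_map.2 (h.imp fun h => h e e he he))).symm
  rw [List.map_map]
  exact congrArg _ (List.map_congr_left fun r _ => map_x_sg T he r)

variable [Finite ι] [Finite G'] {j : G' →* G} (h : T.IsLie j)
include h

theorem NC.of_lists {r s : ι} {L M : List ι} (hp : (r :: L ++ s :: M).Pairwise (Orth S))
    (h0 : ∀ k ∈ r :: L ++ s :: M, R.IsPos k) (h1 : ((r :: L).map T.ρ).Perm (r :: L))
    (h2 : ((s :: M).map T.ρ).Perm (s :: M)) : NC G' := by
  obtain ⟨p1, p2, p3⟩ := List.pairwise_append.1 hp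
  have k : ∀ r L, (r :: L).Pairwise (Orth S) → (∀ k ∈ r :: L, R.IsPos k) → ((r :: L).map T.ρ).Perm (r :: L) →
      pa S id (r :: L) * pa S R.neg (r :: L) ∈ j.range ∧ pa S id (r :: L) ≠ pa S R.neg (r :: L) :=
    fun r L h1 h2 h3 => by
      have a1 : pa S id (r :: L) ∈ S.U := pa_mem h2
      have a2 : pa S R.neg (r :: L) ∈ S.V := pa_mem fun k hk e => (R.isPos_neg k).1 e (h2 k hk)
      exact ⟨mul_mem (h.isTw.U_le h.good ⟨a1, pa_fix h1 h3 sg_id⟩) (h.isTw.V_le h.good ⟨a2, pa_fix h1 h3 sg_neg⟩),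
        fun e => pa_ne h.good (List.pairwise_cons.1 h1).1 (h.good.eq_one_of_mem_B_V (S.U_le_B a1) (e ▸ a2))⟩
  obtain ⟨a1, a2⟩ := k r L p1 (fun k hk => h0 k (List.mem_append_left _ hk)) h1
  obtain ⟨a3, a4⟩ := k s M p2 (fun k hk => h0 k (List.mem_append_right _ hk)) h2
  exact ((NC.of_tri h.inj (tri_pa p1) (tri_pa p2) a1 a3 (commute_pa p3 sg_id sg_id) (commute_pa p3 sg_id sg_neg)
    (commute_pa p3 sg_neg sg_id) (commute_pa p3 sg_neg sg_neg)).resolve_right (not_or.2 ⟨a2, a4⟩))

theorem NC.of_roots {r s : ι} (ho : Orth S r s) (hr : R.IsPos r) (hs : R.IsPos s) (h1 : T.ρ r = r)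
    (h2 : T.ρ s = s) : NC G' :=
  NC.of_lists h (r := r) (s := s) (L := []) (M := []) (by simpa using ho) (by simp [hr, hs]) (by simp [h1])
    (by simp [h2])

theorem NC.of_simple {a b : κ} {L M : List κ} (hp : (a :: L ++ b :: M).Pairwise fun i j => i ≠ j ∧ R.A i j = 0)
    (h1 : ((a :: L).map T.π).Perm (a :: L)) (h2 : ((b :: M).map T.π).Perm (b :: M)) : NC G' := by
  have k : ∀ L : List κ, (L.map T.π).Perm L → ((L.map R.simple).map T.ρ).Perm (L.map R.simple) := fun L hL => by
    have := hL.map R.simple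
    rw [List.map_map] at this ⊢
    rwa [show T.ρ ∘ R.simple = R.simple ∘ T.π from funext T.ρ_simple]
  refine NC.of_lists h (r := R.simple a) (s := R.simple b) (L := L.map R.simple) (M := M.map R.simple) ?_ ?_
    (k _ h1) (k _ h2) <;> rw [← List.map_cons, ← List.map_cons, ← List.map_append]
  · exact List.pairwise_map.2 (hp.imp fun h => orth_simple h.1 h.2)
  · exact fun k hk => let ⟨i, _, e⟩ := List.mem_map.1 hk; e ▸ R.isPos_simple i

end two

section odd

variable [Finite ι] [Finite G'] [Finite F] {j : G' →* G} (h : T.IsLie j) {p : ℕ} (hp : p.Prime) (h2 : p ≠ 2)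
  [CharP F p]
include h hp h2

theorem NC.of_rank {a b : κ'} (hab : b ≠ a) : NC G' := by
  have := Fact.mk hp
  have k : ∀ a, (S.XS (T.pos a)).comap j ≠ ⊥ := fun a e => by
    obtain ⟨_, ⟨u, rfl⟩, h3, h4⟩ := h.isTw.exists_pos_ne_one h.good a
    exact h4 (by rw [mem_bot.1 (e.le h3), map_one])
  refine NC.of_disjoint hp h2 (h.sylIn (p := p)).pgroup (comap_mono (StData.Twist.pos_le_U a))
    (comap_mono (StData.Twist.pos_le_U b)) (k a) (k b) (eq_bot_iff.2 fun x hx => h.inj ?_)
  rw [map_one]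
  exact (StData.Twist.pos_inf_UJ h.good a).le ⟨hx.1, StData.Twist.pos_le_UJ_of_ne hab hx.2⟩

theorem NC.of_QS {s : F →+* F} (hs : T.IsQS s) {i : κ} (hi : T.π i ≠ i) : NC G' := by
  have := Fact.mk hp
  obtain ⟨w, hw⟩ := hs.s_ne
  rcases hs.cases i with h3 | ⟨h3, h4⟩ | ⟨h3, h4, h5⟩
  · exact absurd h3 hi
  · have c := fun t u => (StData.commute_orth h3 h4 (S.x_mem_XS (R.simple_mem_sub_self i) t)
      (S.x_mem_XS (R.simple_mem_sub_self (T.π i)) u)).eq
    refine NC.of_add hp h2 h.inj (φ := fun t => S.x (R.simple i) t * S.x (R.simple (T.π i)) (s t)) (w := w)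
      (fun t u => ?_) (fun t e => by_contra fun ht => ?_)
      (fun t => h.isTw.pos_le _ ((hs.mem_two h.good h3 h4).2 ⟨t, rfl⟩)) fun n e => hw (by rw [e, map_intCast])
    · simp only [map_add, S.x_add, mul_assoc]
      rw [← mul_assoc (S.x _ u), c, mul_assoc]
    · refine h.good.not_commute_neg (R.simple i) ht one_ne_zero ?_
      rw [eq_inv_of_mul_eq_one_left e]
      exact (StData.commute_orth h3 h4 (S.x_mem_XS (R.neg_mem_sub_self i) 1)
        (S.x_mem_XS (R.simple_mem_sub_self (T.π i)) _)).inv_right.symm.eq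
  · obtain ⟨k, ε, hε, hk, -, e1, -, e⟩ := hs.exists_A2 h.good h3 h4 h5
    choose v hv using fun t => StData.Twist.exists_trace_eq hs.ss hs.s_ne (c := -(ε * t * s t)) (by
      rcases hε with rfl | rfl <;> simp [hs.ss, mul_comm])
    have m := fun t => (e _).2 ⟨t, v t, hv t, rfl⟩
    obtain ⟨x, hx⟩ := h.isTw.pos_le _ (m 1)
    obtain ⟨y, hy⟩ := h.isTw.pos_le _ (m w)
    refine NC.of_not_commute hp h2 (h.sylIn (p := p)).pgroup (x := x) (y := y)
      (mem_comap.2 (hx ▸ StData.Twist.pos_le_U _ (m 1).1)) (mem_comap.2 (hy ▸ StData.Twist.pos_le_U _ (m w).1))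
      fun hc => hw ?_
    have c1 := fun t u => S.commute_of_noComb hk.noComb_left t u
    have c2 := fun t u => S.commute_of_noComb hk.noComb_right t u
    have h6 := hc.map j
    rw [hx, hy] at h6
    have key : ∀ t t' u u' z z', S.x (R.simple i) t * S.x (R.simple (T.π i)) u * S.x k z *
        (S.x (R.simple i) t' * S.x (R.simple (T.π i)) u' * S.x k z') =
        S.x (R.simple i) (t + t') * S.x (R.simple (T.π i)) (u + u') * S.x k (-(ε * t' * u) + (z + z')) :=
      fun t t' u u' z z' => by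
        have e2 : S.x (R.simple (T.π i)) u * S.x (R.simple i) t' =
            S.x (R.simple i) t' * S.x (R.simple (T.π i)) u * S.x k (-(ε * t' * u)) := by
          rw [e1, mul_assoc, ← S.x_add, add_neg_cancel, S.x_zero, mul_one]
        simp only [S.x_add, mul_assoc]
        rw [← mul_assoc (S.x k z), ← (c1 _ _).eq, mul_assoc, ← mul_assoc (S.x k z), ← (c2 _ _).eq,
          ← mul_assoc (S.x _ u), e2]
        simp only [mul_assoc]
        rw [← mul_assoc (S.x k _), ← (c2 _ _).eq, mul_assoc]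
    have h7 := h6.eq
    rw [key, key, add_comm w, add_comm (s w), mul_right_inj, add_comm (v w), S.x_add, S.x_add _ (-_),
      mul_left_inj, ← mul_inv_eq_one, ← S.x_neg, ← S.x_add] at h7
    have h8 := h.good.x_inj _ _ h7
    rw [map_one] at h8
    rcases hε with rfl | rfl
    · linear_combination h8
    · linear_combination -h8

end odd

end CL.QT
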