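/-
Elementary abelian subgroups of odd rank two in linear and unitary groups over fields of even order.
-/
import Mathlib
import Cfsg.Agent.QT.K1
import Cfsg.Prelude.Def_Classical

set_option autoImplicit false

namespace CL.QT

open Cfsg Subgroup Matrix Equiv
open scoped commutatorElement

variable {F : Type*} [Field F]

theorem commute_diag_perm {ι : Type*} [Fintype ι] [DecidableEq ι] (d : ι → F) (σ : Perm ι) :
    Commute (diagonal d) (σ.permMatrix F) ↔ ∀ i, d (σ i) = d i := by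
  rw [Commute, SemiconjBy, ← Matrix.ext_iff]
  simp only [diagonal_mul, mul_diagonal, Perm.permMatrix, PEquiv.toMatrix_apply, Equiv.toPEquiv_apply,
    Option.mem_def, Option.some.injEq]
  refine ⟨fun h i => by simpa using (h i (σ i)).symm, fun h i j => ?_⟩
  split_ifs with e
  exacts [by rw [← e, h, mul_comm], by simp]

theorem NC.of_diag {G : Type*} [Group G] [Finite G] {n : ℕ} {φ : G →* Matrix (Fin (n + 3)) (Fin (n + 3)) F}
    (hφ : Function.Injective φ) {r : ℕ} (hr : r.Prime) (h2 : r ≠ 2) {a : F} (ha : orderOf a = r)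
    (hd : ∀ d : Fin (n + 3) → F, (∀ i, d i ^ r = 1) → ∏ i, d i = 1 → ∃ g, φ g = diagonal d)
    (hσ : ∀ σ : Perm (Fin (n + 3)), ∃ g, φ g = σ.permMatrix F) : NC (G ⧸ center G) := by
  have hc : ∀ {x y : G}, Commute x y ↔ Commute (φ x) (φ y) := fun {x y} =>
    ⟨fun h => h.map φ, fun h => hφ (by rw [map_mul, map_mul, h.eq])⟩
  have a1 : a ^ r = 1 := ha ▸ pow_orderOf_eq_one a
  have a0 : a ≠ 0 := fun h => by simp [h, hr.ne_zero] at a1
  have ak : ∀ k, k.Prime → a ^ k = 1 → r = k := fun k hk h =>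
    (Nat.prime_dvd_prime_iff_eq hr hk).1 (ha ▸ orderOf_dvd_of_pow_eq_one h)
  have a2 : a ≠ 1 := fun h => hr.ne_one (by rw [← ha, h, orderOf_one])
  have a3 : a⁻¹ ≠ a := fun h => h2 (ak 2 Nat.prime_two (by rw [sq]; nth_rw 1 [← h]; exact inv_mul_cancel₀ a0))
  have hp : ∀ {x : G} {d : Fin (n + 3) → F}, φ x = diagonal d → (∀ i, d i ^ r = 1) → x ^ r = 1 :=
    fun {x d} h h' => hφ (by rw [map_pow, h, diagonal_pow, map_one, show d ^ r = 1 from funext h']; rfl)
  by_cases h3 : r = 3 ∧ n = 0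
  · obtain ⟨rfl, rfl⟩ := h3
    have e1 : ∀ i, ![1, a, a ^ 2] i ^ 3 = 1 := fun i => by
      fin_cases i <;> simp [a1, pow_right_comm a 2]
    obtain ⟨x, hx⟩ := hd ![1, a, a ^ 2] e1 (by simp [Fin.prod_univ_three, ← pow_succ', a1])
    obtain ⟨z, hz⟩ := hd (fun _ => a ^ 2) (fun _ => by simp [a1, pow_right_comm a 2])
      (by simp [a1, pow_right_comm a 2])
    obtain ⟨y, hy⟩ := hσ (finRotate 3)
    have hn : ¬ Commute x y := fun h => a2 ((commute_diag_perm _ _).1 (hx ▸ hy ▸ hc.1 h) 0)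
    refine NC.quot_center hr h2 (v := x) (w := y) (hp hx e1) (hφ ?_) ?_ hn (Commute.refl x) fun h => hn h.symm
    · rw [map_pow, hy, map_one, pow_three, ← permMatrix_mul, ← permMatrix_mul,
        show finRotate 3 * finRotate 3 * finRotate 3 = 1 by decide, permMatrix_one]
    · rw [show ⁅x, y⁆ = z from ?_]
      · exact mem_center_iff.2 fun g => (hc.2 (hz ▸ (scalar_commute _ (fun _ => Commute.all _ _) _))).symm.eq
      rw [commutatorElement_def, mul_inv_eq_iff_eq_mul, mul_inv_eq_iff_eq_mul]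
      refine hφ ?_
      rw [map_mul, map_mul, map_mul, hx, hy, hz]
      ext i j
      simp only [diagonal_mul, mul_diagonal, Perm.permMatrix, PEquiv.toMatrix_apply, Equiv.toPEquiv_apply,
        Option.mem_def, Option.some.injEq]
      split_ifs with e
      · subst e
        fin_cases i <;> simp [← pow_succ, ← pow_add, a1, pow_succ' a 3]
      · simp
  have e1 : ∀ i, (Fin.cons a (Fin.cons a (Fin.cons (a⁻¹ ^ 2) 1)) : Fin (n + 3) → F) i ^ r = 1 := by
    simp [Fin.forall_fin_succ, a1, pow_right_comm a 2]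
  have e2 : ∀ i, (Fin.cons a (Fin.cons a⁻¹ 1) : Fin (n + 3) → F) i ^ r = 1 := by
    simp [Fin.forall_fin_succ, a1]
  obtain ⟨x, hx⟩ := hd _ e1 (by simp [Fin.prod_univ_succ]; field_simp)
  obtain ⟨y, hy⟩ := hd _ e2 (by simp [Fin.prod_univ_succ, a0])
  obtain ⟨v, hv⟩ := hσ (swap 0 1)
  obtain ⟨i, hi⟩ : ∃ i, (Fin.cons a (Fin.cons a (Fin.cons (a⁻¹ ^ 2) 1)) : Fin (n + 3) → F) i ≠ a := by
    by_cases h4 : r = 3
    · obtain ⟨n, rfl⟩ := Nat.exists_eq_succ_of_ne_zero fun h => h3 ⟨h4, h⟩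
      exact ⟨(0 : Fin (n + 1)).succ.succ.succ, a2.symm⟩
    · refine ⟨(0 : Fin (n + 1)).succ.succ, fun h => h4 (ak 3 Nat.prime_three ?_)⟩
      have h5 : a⁻¹ ^ 2 = a := h
      field_simp at h5
      exact h5.symm
  obtain ⟨w, hw⟩ := hσ (swap 0 i)
  refine NC.quot_center hr h2 (v := v) (w := w) (hp hx e1) (hp hy e2) ?_ (fun h => hi ?_) (hc.2 ?_) fun h => a3 ?_
  · rw [commutatorElement_eq_one_iff_commute.2 (hc.2 (hx ▸ hy ▸ commute_diagonal _ _))]
    exact one_mem _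
  · have := (commute_diag_perm _ _).1 (hx ▸ hw ▸ hc.1 h) 0
    rwa [swap_apply_left] at this
  · rw [hx, hv, commute_diag_perm]
    intro k
    rw [swap_apply_def]
    split_ifs with h4 h5
    exacts [h4 ▸ rfl, h5 ▸ rfl, rfl]
  · have := (commute_diag_perm _ _).1 (hy ▸ hv ▸ hc.1 h) 0
    rwa [swap_apply_left] at this

variable [Fintype F] [CharP F 2]

omit [Fintype F] in
theorem det_perm_two {n : ℕ} (σ : Perm (Fin n)) : (σ.permMatrix F).det = 1 := by
  rw [det_permutation]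
  rcases Int.units_eq_one_or (Perm.sign σ) with h | h <;> simp [h, CharTwo.neg_eq]

theorem exists_odd_root {m : ℕ} (hm : m ∣ Fintype.card F - 1) (h1 : m ≠ 1) :
    ∃ (r : ℕ) (a : F), r.Prime ∧ r ≠ 2 ∧ r ∣ m ∧ orderOf a = r := by
  classical
  have := Fact.mk (Nat.minFac_prime h1)
  have h2 := m.minFac_dvd.trans hm
  obtain ⟨a, ha⟩ := exists_prime_orderOf_dvd_card (G := Fˣ) m.minFac (by rwa [Fintype.card_units])
  refine ⟨_, a, this.1, fun h => ?_, m.minFac_dvd, by rw [orderOf_units, ha]⟩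
  obtain ⟨k, -, hk⟩ := FiniteField.card F 2
  have h3 := dvd_pow_self 2 k.ne_zero
  have := Fintype.one_lt_card (α := F)
  rw [h] at h2
  omega

theorem nc_PSL_two {n : ℕ} (hF : Fintype.card F ≠ 2) : NC (ProjectiveSpecialLinearGroup (Fin (n + 3)) F) := by
  obtain ⟨r, a, h1, h2, -, h3⟩ := exists_odd_root (F := F) dvd_rfl (by omega)
  exact NC.of_diag (φ := slToMat _ F) (fun _ _ h => Subtype.ext h) h1 h2 h3
    (fun d _ h => ⟨⟨diagonal d, by rw [det_diagonal, h]⟩, rfl⟩) fun σ => ⟨⟨_, det_perm_two σ⟩, rfl⟩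

theorem nc_PSU_two {n q : ℕ} (hF : Fintype.card F = q ^ 2) : NC (PSU (n + 3) F q) := by
  have h0 := Fintype.one_lt_card (α := F)
  obtain ⟨r, a, h1, h2, h4, h3⟩ := exists_odd_root (F := F) (m := q + 1)
    (by rw [hF, ← one_pow 2, Nat.sq_sub_sq]; exact dvd_mul_right _ _) (by rintro h; simp_all)
  refine NC.of_diag (φ := (slToMat _ F).comp (SU _ F q).subtype) (fun _ _ h => Subtype.ext (Subtype.ext h)) h1 h2 h3
    (fun d h5 h => ⟨⟨⟨diagonal d, by rw [det_diagonal, h]⟩, fun u v => Finset.sum_congr rfl fun i _ => ?_⟩, rfl⟩)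
    fun σ => ⟨⟨⟨_, det_perm_two σ⟩, fun u v => ?_⟩, rfl⟩
  · obtain ⟨k, hk⟩ := h4
    have h6 : d i * d i ^ q = 1 := by rw [← pow_succ', hk, pow_mul, h5, one_pow]
    change (diagonal d *ᵥ u) i * (diagonal d *ᵥ v) i ^ q = _
    rw [mulVec_diagonal, mulVec_diagonal, mul_pow, mul_mul_mul_comm, h6, one_mul]
  · change hermForm _ F q (σ.permMatrix F *ᵥ u) (σ.permMatrix F *ᵥ v) = _
    rw [permMatrix_mulVec, permMatrix_mulVec]
    exact Equiv.sum_comp σ fun i => u i * v i ^ q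

end CL.QT
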