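/-
Elementary abelian subgroups of odd rank two in the groups of Lie type.
-/
import Mathlib
import Cfsg.Agent.QT.K2
import Cfsg.Agent.QT.K3

set_option autoImplicit false

namespace CL.QT

open Cfsg Subgroup CL.Chev Cfsg.Lie CL.Chev.Cl

section abs

variable {ι κ κ' : Type*} [Fintype κ] [DecidableEq κ] {R : RootSys ι κ} {F G G' : Type*} [Field F] [Group G]
  [Group G'] {S : StData R F G} {T : S.Twist κ'}

theorem orth_of_noComb {r s : ι} (h : R.NoComb r s) (hp : R.pair r s = 0) : Orth S r s := by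
  have h1 := h.W (R.refl_mem_W r)
  have h2 := h.W (R.refl_mem_W s)
  have h3 := h1.W (R.refl_mem_W s)
  rw [R.refl_self, (R.refl_eq_self_iff _ _).2 hp] at h1 h3
  rw [R.refl_self, (R.refl_eq_self_iff _ _).2 ((R.pair_eq_zero_comm _ _).1 hp)] at h2
  rw [R.refl_self, (R.refl_eq_self_iff _ _).2 (by rw [R.pair_neg_right, (R.pair_eq_zero_comm _ _).1 hp, neg_zero])] at h3
  rintro _ _ (rfl | rfl) (rfl | rfl)
  exacts [S.commute_of_noComb h _ _, S.commute_of_noComb h2 _ _, S.commute_of_noComb h1 _ _,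
    S.commute_of_noComb h3 _ _]

variable [Finite ι] [Finite G'] [Finite F] {j : G' →* G}

theorem NC.of_cases (h : T.IsLie j) {a b : κ'} (hab : b ≠ a) (h2 : CharP F 2 → NC G') : NC G' := by
  obtain ⟨p, hc⟩ := CharP.exists F
  by_cases hp : p = 2
  exacts [h2 (hp ▸ hc), NC.of_rank h (CharP.char_is_prime F p) hp hab]

theorem NC.of_cases' (h : T.IsLie j) {s : F →+* F} (hs : T.IsQS s) {i : κ} (hi : T.π i ≠ i)
    (h2 : CharP F 2 → NC G') : NC G' := by
  obtain ⟨p, hc⟩ := CharP.exists F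
  by_cases hp : p = 2
  exacts [h2 (hp ▸ hc), NC.of_QS h (CharP.char_is_prime F p) hp hs hi]

theorem NC.of_triv (h : S.trivTw.IsLie j) {a b : κ} (hab : a ≠ b) (h0 : R.A a b = 0) : NC G' :=
  NC.of_cases h hab fun _ => NC.of_simple h (a := a) (b := b) (L := []) (M := []) (by simp [hab, h0]) (.refl _) (.refl _)

end abs

variable {F : Type} [Field F] [Fintype F]

theorem exists_not_int {p : ℕ} (hp : p.Prime) [CharP F p] (h : Fintype.card F ≠ p) : ∃ w : F, ∀ n : ℤ, w ≠ n := by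
  by_contra! h0
  have := Fact.mk hp
  refine h ((Fintype.card_of_bijective (f := ZMod.castHom dvd_rfl F) ⟨(ZMod.castHom dvd_rfl F).injective,
    fun w => ?_⟩).symm.trans (ZMod.card p))
  obtain ⟨n, rfl⟩ := h0 w
  exact ⟨n, map_intCast _ n⟩

theorem nc_PSL2 (h2 : ¬ CharP F 2) (h : ¬ (Fintype.card F).Prime) :
    NC (Matrix.ProjectiveSpecialLinearGroup (Fin 2) F) := by
  obtain ⟨p, hc⟩ := CharP.exists F
  have hp := CharP.char_is_prime F p
  obtain ⟨w, hw⟩ := exists_not_int (F := F) hp fun e => h (e ▸ hp)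
  exact NC.of_add hp (fun e => h2 (e ▸ hc)) (j := MonoidHom.id _) Function.injective_id
    ((pslSt F 1).x_add ((baseA 1).R.simple 0)) ((pslSt_good F 1).x_inj _) (fun _ => ⟨_, rfl⟩) hw

theorem nc_PSL {n : ℕ} (h : ¬ (n = 0 ∧ Fintype.card F = 2)) :
    NC (Matrix.ProjectiveSpecialLinearGroup (Fin (n + 3)) F) := by
  rcases n with _ | n
  · exact NC.of_cases (isLie_PSL F 2) (a := 0) (b := 1) (by decide) fun _ => nc_PSL_two (by simpa using h)
  · exact NC.of_triv (isLie_PSL F (n + 3)) (a := ⟨0, by omega⟩) (b := ⟨2, by omega⟩) (by simp)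
      (by simp [baseA_A, chainA])

theorem nc_PSp (n : ℕ) : NC (PSp (n + 2) F) := by
  rcases n with _ | n
  · refine NC.of_cases (isLie_PSp F 1) (a := 0) (b := 1) (by decide) fun _ => ?_
    have h := RootSys.b2P_refl (R := (baseC 1).R) (c := (baseC 1).R.simple 0) (d := (baseC 1).R.simple 1)
      (by rw [RootSys.pair_simple_simple, baseC_A]; rfl) (by rw [RootSys.pair_simple_simple, baseC_A]; rfl)
    refine NC.of_roots (isLie_PSp F 1) (orth_of_noComb h.noComb_d_l h.pair_d_l) (RootSys.isPos_simple _ _) ?_ rfl rfl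
    rw [RootSys.isPos_iff, h.2.2.2, RootSys.rt_simple, RootSys.rt_simple]
    decide
  · exact NC.of_triv (isLie_PSp F (n + 2)) (a := ⟨0, by omega⟩) (b := ⟨2, by omega⟩) (by simp)
      (by simp [baseC_A, chainA])

theorem nc_PSU {n q : ℕ} (hF : Fintype.card F = q ^ 2) (h : ¬ (n = 0 ∧ q = 2)) : NC (PSU (n + 3) F q) := by
  obtain ⟨j, hj⟩ := isLie_PSU hF (n := n + 2) (by omega) (by omega)
  exact NC.of_cases' hj (psuTw_QS hF _) (i := 0) (by simp [psuTw_π, Fin.ext_iff]) fun _ => nc_PSU_two hF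

theorem nc_odd {n : ℕ} (hF : Odd (Fintype.card F)) : NC (POmega F (quadFormOdd (n + 3) F)) := by
  have h1 : ∃ a : F, a ≠ 0 ∧ a ≠ 1 := ⟨-1, by simp, fun h => FGL.two_ne_zero_of_odd hF (by linear_combination -h)⟩
  exact NC.of_triv (isLie_odd (n := n + 2) (by omega) h1) (a := ⟨0, by omega⟩) (b := ⟨2, by omega⟩) (by simp)
    (by simp [baseB_A, chainA])

theorem nc_plus (n : ℕ) : NC (POmega F (quadFormPlus (n + 4) F)) :=
  NC.of_triv (isLie_plus F (n := n + 2) (by omega)) (a := ⟨0, by omega⟩) (b := ⟨2, by omega⟩) (by simp)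
    (by simp [baseD_A, chainA])

theorem nc_minus (n : ℕ) {a b : F} (hab : ∀ z₁ z₂ : F, z₁ ^ 2 + a * z₁ * z₂ + b * z₂ ^ 2 = 0 → z₁ = 0 ∧ z₂ = 0) :
    NC (POmega F (quadFormMinus (n + 3) F a b)) := by
  obtain ⟨K, _, _, f, hK, ω, h⟩ := exists_qSplit hab
  obtain ⟨j, hj⟩ := isLie_minus h hab (n := n + 2) (by omega) (by omega)
  refine NC.of_cases' hj (h.ptw_QS _) (i := Fin.last _) (by simp [h.ptw_π, Fin.ext_iff, dSwap_val]) fun _ =>
    NC.of_simple hj (a := ⟨0, by omega⟩) (b := ⟨n + 3, by omega⟩) (L := []) (M := [⟨n + 2, by omega⟩])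
      (by simp [baseD_A, chainA]) (.of_eq ?_) ((List.Perm.swap _ _ _).trans (.of_eq ?_)) <;>
    simp [h.ptw_π, Fin.ext_iff, dSwap_val]

theorem nc_G2 : NC (chevG2.group F) :=
  NC.of_cases (isLie_chev F chevG2) (a := (0 : Fin 2)) (b := (1 : Fin 2)) (Fin.ne_of_val_ne (by decide)) fun _ =>
    NC.of_roots (isLie_chev F chevG2) (r := rG2 11) (s := rG2 7)
      (orth_long (by unfold RootSys.Long; decide +kernel) (by decide +kernel))
      (by unfold RootSys.IsPos; decide +kernel) (by unfold RootSys.IsPos; decide +kernel) rfl rfl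

theorem nc_F4 : NC (chevF4.group F) :=
  NC.of_triv (isLie_chev F chevF4) (a := (0 : Fin 4)) (b := (3 : Fin 4)) (Fin.ne_of_val_ne (by decide))
    (by decide +kernel)

theorem nc_E6 : NC (chevE6.group F) :=
  NC.of_triv (isLie_chev F chevE6) (a := (0 : Fin 6)) (b := (1 : Fin 6)) (Fin.ne_of_val_ne (by decide))
    (by decide +kernel)

theorem nc_E7 : NC (chevE7.group F) :=
  NC.of_triv (isLie_chev F chevE7) (a := (0 : Fin 7)) (b := (1 : Fin 7)) (Fin.ne_of_val_ne (by decide))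
    (by decide +kernel)

theorem nc_E8 : NC (chevE8.group F) :=
  NC.of_triv (isLie_chev F chevE8) (a := (0 : Fin 8)) (b := (1 : Fin 8)) (Fin.ne_of_val_ne (by decide))
    (by decide +kernel)

section tw

variable {ι G G' : Type*} [Group G] [Group G'] [Finite ι] [Finite G'] {j : G' →* G}

theorem nc_isE6 {R : RootSys ι (Fin 6)} {S : StData R F G} {T : S.Twist (Fin 4)} {q : ℕ} (h : T.IsE6 q)
    (hj : T.IsLie j) : NC G' := by
  refine NC.of_cases hj (a := 0) (b := 1) (by decide) fun _ =>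
    NC.of_simple hj (a := 1) (b := 0) (L := []) (M := [5]) (by simp [h.A_eq]) ?_ ?_ <;>
  simp only [List.map, h.π] <;> decide

theorem nc_isD4 {R : RootSys ι (Fin 4)} {S : StData R F G} {T : S.Twist (Fin 2)} {q : ℕ} (h : T.IsD4 q)
    (hj : T.IsLie j) (hl : ∀ r, R.Long r) {γ : ι} (hγ : γ = R.σ 1 (R.σ 0 (R.σ 2 (R.σ 3 (R.simple 1)))))
    (h1 : γ = R.σ 1 (R.σ 2 (R.σ 3 (R.σ 0 (R.simple 1))))) (h2 : R.IsPos γ)
    (h3 : [γ, R.simple 0, R.simple 2, R.simple 3].Pairwise fun r s => R.pair r s = 0) : NC G' := by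
  refine NC.of_cases hj (a := 0) (b := 1) (by decide) fun _ =>
    NC.of_lists hj (r := γ) (s := R.simple 0) (L := []) (M := [R.simple 2, R.simple 3])
      (h3.imp fun h => orth_long (hl _) h) (by simpa [R.isPos_simple] using (h2 : R.IsPos γ)) (.of_eq ?_) ?_
  · conv_lhs => rw [hγ]
    simp only [List.map, T.ρ_σ, T.ρ_simple, h.π]
    exact congrArg (fun x => [x]) h1.symm
  · simp only [List.map, T.ρ_simple, h.π]
    exact (List.perm_append_comm (l₁ := [_, _]) (l₂ := [_]))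

omit [Fintype F] in
theorem nc_isF4 {R : RootSys ι (Fin 4)} {S : StData R F G} {T : S.Twist (Fin 2)} {m : ℕ} {θ : F →+* F} {c d : ι}
    (h : T.IsF4 m θ c d) (hj : T.IsLie j) {γ β : ι}
    (hγ : γ = R.σ 1 (R.σ 0 (R.σ 2 (R.σ 1 (R.σ 2 (R.simple 3))))))
    (hβ : β = R.σ 2 (R.σ 3 (R.σ 1 (R.σ 2 (R.σ 1 (R.simple 0)))))) (l1 : R.Long (R.simple 3)) (l2 : R.Long γ)
    (h1 : 0 < R.ht γ ∧ 0 < R.ht β ∧ R.pair (R.simple 3) (R.simple 0) = 0 ∧ R.pair (R.simple 3) γ = 0 ∧
      R.pair (R.simple 3) β = 0 ∧ R.pair γ (R.simple 0) = 0 ∧ R.pair γ β = 0) : NC G' := by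
  have := h.charP
  obtain ⟨a1, a2, a3, a4, a5, a6, a7⟩ := h1
  have e1 : T.ρ (R.simple 3) = R.simple 0 := by rw [T.ρ_simple, h.π]; rfl
  have e2 : T.ρ (R.simple 0) = R.simple 3 := by rw [T.ρ_simple, h.π]; rfl
  have e3 : T.ρ γ = β := by simp only [hγ, hβ, T.ρ_σ, T.ρ_simple, h.π]; rfl
  have e4 : T.ρ β = γ := by simp only [hγ, hβ, T.ρ_σ, T.ρ_simple, h.π]; rfl
  have o1 : Orth S (R.simple 3) γ := orth_long l1 a4
  refine NC.of_lists hj (r := R.simple 3) (s := γ) (L := [R.simple 0]) (M := [β]) ?_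
    (by simpa [R.isPos_simple] using ⟨a1, a2⟩) ?_ ?_
  · simpa using ⟨⟨orth_long l1 a3, o1, orth_long l1 a5⟩, ⟨(orth_long l2 a6).symm, e1 ▸ e3 ▸ o1.map T⟩,
      orth_long l2 a7⟩
  · rw [List.map_cons, List.map_cons, e1, e2]; exact .swap _ _ _
  · rw [List.map_cons, List.map_cons, e3, e4]; exact .swap _ _ _

end tw

theorem nc_2E6 {q : ℕ} (hq : IsPrimePow q) (hF : Fintype.card F = q ^ 2) : NC (twistedE6 F q) :=
  let ⟨_, h, hj⟩ := isLie_2E6 hq (Nat.card_eq_fintype_card.trans hF)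
  nc_isE6 h hj

theorem nc_3D4 {q : ℕ} (hq : IsPrimePow q) (hF : Fintype.card F = q ^ 3) : NC (twistedD4 F q) :=
  let ⟨_, h, hj⟩ := isLie_3D4 hq (Nat.card_eq_fintype_card.trans hF)
  nc_isD4 h hj (by unfold RootSys.Long; decide +kernel) rfl (by decide +kernel)
    (by unfold RootSys.IsPos; decide +kernel) (by decide +kernel)

theorem nc_2F4 {m : ℕ} (hF : Fintype.card F = 2 ^ (2 * m + 1)) : NC (twistedF4 F (2 ^ m)) :=
  let ⟨_, _, h, hj⟩ := isLie_2F4 (Nat.card_eq_fintype_card.trans hF)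
  nc_isF4 h hj rfl rfl (by unfold RootSys.Long; decide +kernel) (by unfold RootSys.Long; decide +kernel)
    (by decide +kernel)

theorem nc_2G2 {m : ℕ} (hm : 1 ≤ m) (hF : Fintype.card F = 3 ^ (2 * m + 1)) : NC (twistedG2 F (3 ^ m)) := by
  obtain ⟨T, θ, h, hj⟩ := isLie_2G2 (Nat.card_eq_fintype_card.trans hF)
  have := h.charP
  obtain ⟨w, hw⟩ := exists_not_int (F := F) Nat.prime_three
    (hF ▸ (Nat.pow_lt_pow_right (a := 3) (m := 1) (by decide) (by omega)).ne')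
  refine NC.of_add Nat.prime_three (by decide) hj.inj
    (φ := fun t => (stG chevG2 F).x (rG2 9) (θ t) * (stG chevG2 F).x (rG2 11) t) (fun t u => ?_) (fun t e => ?_)
    (fun t => hj.isTw.U_le hj.good ((h.mem_U hj.good).2 ⟨0, 0, t, by simp [StData.x_zero]⟩)) hw
  · simp only [map_add, StData.x_add, mul_assoc]
    rw [← mul_assoc (StData.x _ _ t), h.frame.fd, mul_assoc]
  · exact (T.cancel_G2 hj.good h.mem_pos h.nodup (s := 0) (t := 0) (x := 0) (y := θ t) (u := 0) (v := t)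
      (s' := 0) (t' := 0) (x' := 0) (y' := 0) (u' := 0) (v' := 0) (by simpa [StData.x_zero] using e)).2.2.2.2.2

end CL.QT
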