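/-
Elementary abelian subgroups of order nine in the sporadic groups given by Coxeter-like presentations.
-/
import Mathlib
import Cfsg.Agent.QT.K2
import Cfsg.Agent.TECH.Exp2Cox
import Cfsg.Prelude.Def_Spor_ON

set_option autoImplicit false

namespace CL.QT

open Cfsg Cfsg.Spor Subgroup CL.Exp2

section cox

variable {α : Type*} [DecidableEq α] {edges : List (α × ℕ × α)} {extra : List (FreeGroup α)}

/-- `x`, `y` are nodes with label `m` -/
abbrev Lab (edges : List (α × ℕ × α)) (x y : α) (m : ℕ) : Prop :=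
  x ∈ coxNodes edges ∧ y ∈ coxNodes edges ∧ coxLabel edges x y = m

/-- the nodes of `m` are forced one after the other -/
def Forced (edges : List (α × ℕ × α)) : List α → List α → Prop
  | _, [] => True
  | l, z :: m => (∃ x ∈ l, ∃ y ∈ l, Lab edges x z 2 ∧ Lab edges y z 3) ∧ Forced edges (z :: l) m

instance decForced (edges : List (α × ℕ × α)) : ∀ l m, Decidable (Forced edges l m)
  | _, [] => isTrue trivial
  | l, z :: m => have := decForced edges (z :: l) m; inferInstanceAs (Decidable (_ ∧ _))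

theorem eq_of_forced {g : CoxPresented α edges extra} {l m : List α} (h : Forced edges l m)
    (e : ∀ x ∈ l, gn edges extra x = g) : ∀ x ∈ m, gn edges extra x = g := by
  induction m generalizing l with
  | nil => simp
  | cons z m ih =>
    obtain ⟨⟨x, hx, y, hy, h1⟩, h2⟩ := h
    have h3 := (cox_prop ((e x hx).trans (e y hy).symm) z h1).symm.trans (e y hy)
    exact List.forall_mem_cons.2 ⟨h3, ih h2 (List.forall_mem_cons.2 ⟨h3, e⟩)⟩

theorem comm_of_forced {x y : α} (e : gn edges extra x = gn edges extra y) (m : List α)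
    (h : Forced edges [x, y] m) (h' : ∀ z, z ∈ x :: y :: m) : IsMulCommutative (CoxPresented α edges extra) :=
  comm_of_forall_eq y fun z => by
    have h1 : ∀ z ∈ [x, y], gn edges extra z = gn edges extra y := by simp [e]
    rcases List.mem_append.1 (show z ∈ [x, y] ++ m from h' z) with h2 | h2
    exacts [h1 z h2, eq_of_forced h h1 z h2]

theorem cox_tri {G : Type*} [Group G] [Finite G] {j : G →* CoxPresented α edges extra} (hj : Function.Injective j)
    (a b c d : α) (h : Lab edges a b 3 ∧ Lab edges c d 3 ∧ Lab edges a c 2 ∧ Lab edges a d 2 ∧ Lab edges b c 2 ∧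
      Lab edges b d 2) (m1 : gn edges extra a * gn edges extra b ∈ j.range)
    (m2 : gn edges extra c * gn edges extra d ∈ j.range) :
    NC G ∨ gn edges extra a = gn edges extra b ∨ gn edges extra c = gn edges extra d :=
  let ⟨h1, h2, h3, h4, h5, h6⟩ := h
  NC.of_tri hj ⟨cox_sq a h1.1, cox_sq b h1.2.1, cox_rel a b h1⟩ ⟨cox_sq c h2.1, cox_sq d h2.2.1, cox_rel c d h2⟩ m1 m2
    (cox_comm a c h3) (cox_comm a d h4) (cox_comm b c h5) (cox_comm b d h6)

theorem cox_tri' [Finite (CoxPresented α edges extra)] (a b c d : α) (h : Lab edges a b 3 ∧ Lab edges c d 3 ∧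
      Lab edges a c 2 ∧ Lab edges a d 2 ∧ Lab edges b c 2 ∧ Lab edges b d 2) :
    NC (CoxPresented α edges extra) ∨ gn edges extra a = gn edges extra b ∨ gn edges extra c = gn edges extra d :=
  cox_tri (j := MonoidHom.id _) Function.injective_id a b c d h ⟨_, rfl⟩ ⟨_, rfl⟩

theorem mul_mem_comm (a b : α) (h : Lab edges a b 3) :
    gn edges extra a * gn edges extra b ∈ commutator (CoxPresented α edges extra) := by
  rw [← Abelianization.ker_of, MonoidHom.mem_ker, map_mul, ab_eq a b h, ← map_mul, cox_sq b h.2.1, map_one]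

end cox

theorem comm_of_subsingleton {G : Type*} [Group G] (h : Subsingleton G) : IsMulCommutative G :=
  ⟨⟨fun _ _ => Subsingleton.elim _ _⟩⟩

theorem nc_Fi22 [Finite Fi22] (h : ¬ IsMulCommutative Fi22) : NC Fi22 := by
  refine (cox_tri' (edges := Fi22.edges) (extra := Fi22.extra)
    .a .b .f .g (by decide +kernel)).resolve_right fun e => h (e.elim
    (comm_of_forced (extra := Fi22.extra) · [.c, .d, .e, .f, .g, .h, .i]
        (by decide +kernel) ?_)
    (comm_of_forced (extra := Fi22.extra) · [.e, .d, .c, .b, .a, .h, .i]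
        (by decide +kernel) ?_)) <;>
  exact fun z => by cases z <;> decide

theorem nc_Fi23 [Finite Fi23] (h : ¬ IsMulCommutative Fi23) : NC Fi23 := by
  refine (cox_tri' (edges := Fi23.edges) (extra := Fi23.extra)
    .a .b .f .g (by decide +kernel)).resolve_right fun e => h (e.elim
    (comm_of_forced (extra := Fi23.extra) · [.c, .d, .e, .f, .g, .j, .h, .i]
        (by decide +kernel) ?_)
    (comm_of_forced (extra := Fi23.extra) · [.e, .d, .c, .b, .a, .j, .h, .i]
        (by decide +kernel) ?_)) <;>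
  exact fun z => by cases z <;> decide

theorem nc_B [Finite BabyMonster] (h : ¬ IsMulCommutative BabyMonster) : NC BabyMonster := by
  refine (cox_tri' (edges := BabyMonster.edges) (extra := BabyMonster.extra)
    .t1 .t2 .t7 .t8 (by decide +kernel)).resolve_right fun e => h (e.elim
    (comm_of_forced (extra := BabyMonster.extra) · [.t3, .t4, .t5, .t6, .t7, .t8, .t9, .t10, .t11]
        (by decide +kernel) ?_)
    (comm_of_forced (extra := BabyMonster.extra) · [.t6, .t5, .t4, .t3, .t2, .t1, .t9, .t10, .t11]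
        (by decide +kernel) ?_)) <;>
  exact fun z => by cases z <;> decide

theorem nc_Fi24 [Finite Fi24'] (h : ¬ IsMulCommutative Fi24') : NC Fi24' := by
  refine (cox_tri (edges := Fi24.edges) (extra := Fi24.extra)
    (subtype_injective _) .a .b .f .g (by decide +kernel) ((range_subtype _).ge (mul_mem_comm _ _ (by decide)))
    ((range_subtype _).ge (mul_mem_comm _ _ (by decide)))).resolve_right fun e =>
    h (comm_of_subsingleton (G := Fi24') (subsingleton_of_comm (G := Fi24) (e.elim
      (comm_of_forced (extra := Fi24.extra) · [.c, .d, .e, .f, .g, .j, .h, .i, .k, .l]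
        (by decide +kernel) ?_)
      (comm_of_forced (extra := Fi24.extra) · [.e, .d, .c, .b, .a, .j, .h, .i, .k, .l]
        (by decide +kernel) ?_)) le_rfl)) <;>
  exact fun z => by cases z <;> decide

theorem nc_M [Finite Monster] (h : ¬ IsMulCommutative Monster) : NC Monster := by
  have k : ∀ x y, Lab Bimonster.edges x y 3 ∧ Lab Bimonster.edges x .a 2 ∧ Lab Bimonster.edges y .a 2 →
      gn Bimonster.edges Bimonster.extra x * gn Bimonster.edges Bimonster.extra y ∈
      (centralizer {(PresentedGroup.of Bimonster.Gen.a : Bimonster)} ⊓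
        commutator Bimonster).subtype.range := fun x y h => (range_subtype _).ge
    ⟨mem_centralizer_singleton_iff.2 ((cox_comm x _ h.2.1).mul_left (cox_comm y _ h.2.2)).eq, mul_mem_comm _ _ h.1⟩
  refine (cox_tri (edges := Bimonster.edges) (extra := Bimonster.extra)
    (subtype_injective _) .c1 .d1 .c2 .d2 (by decide +kernel) (k _ _ (by decide +kernel))
    (k _ _ (by decide +kernel))).resolve_right fun e =>
    h (comm_of_subsingleton (G := Monster) (subsingleton_of_comm (G := Bimonster) (e.elim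
      (comm_of_forced (extra := Bimonster.extra) · [.e1, .f1, .b1, .a, .b2, .c2, .d2, .e2, .f2, .b3, .c3, .d3, .e3, .f3]
        (by decide +kernel) ?_)
      (comm_of_forced (extra := Bimonster.extra) · [.e2, .f2, .b2, .a, .b1, .c1, .d1, .e1, .f1, .b3, .c3, .d3, .e3, .f3]
        (by decide +kernel) ?_))
      inf_le_right)) <;>
  exact fun z => by cases z <;> decide

local notation "gSuz" => gn Suz.edges Suz.extra

theorem nc_Suz [Finite Suz] (h : ¬ IsMulCommutative Suz) : NC Suz := by
  refine (cox_tri' (edges := Suz.edges) (extra := Suz.extra)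
    .b .f .d .e (by decide)).resolve_right fun e => h (comm_of_subsingleton (G := Suz) ?_)
  have sq : ∀ x : Suz.Gen, gSuz x ^ 2 = 1 := fun x => by
    rw [sq]; exact cox_sq x (by cases x <;> decide)
  have r0 : gSuz .a * ((gSuz .c * gSuz .d) ^ 4)⁻¹ = 1 := extra_rel 0 (by decide)
  have r1 : gSuz .a * ((gSuz .f * gSuz .g) ^ 2)⁻¹ = 1 := extra_rel 1 (by decide)
  have r4 : ((gSuz .b * gSuz .c * gSuz .d * gSuz .c * gSuz .d) ^ 5 * gSuz .e) ^ 3 = 1 :=
    extra_rel 4 (by decide)
  have ha : gSuz .a = 1 := by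
    rcases e with e | e
    · rwa [eq_one_of_pow (cox_rel (extra := Suz.extra) .f .g (m := 4) (by decide))
        (e ▸ cox_rel (extra := Suz.extra) .b .g (m := 3) (by decide)) rfl, one_pow, inv_one, mul_one] at r1
    · rwa [e, show 4 = 2 * 2 from rfl, pow_mul, cox_rel Suz.Gen.c .e (m := 2) (by decide), one_pow, inv_one, mul_one] at r0
  have k : ∀ x y : Suz.Gen, ∀ m, Lab Suz.edges x y m → Nat.gcd 2 m = 1 → gSuz x = 1 →
      gSuz y = 1 := fun x y m h hm hx => by
    have := cox_rel (extra := Suz.extra) x y h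
    rw [hx, one_mul] at this
    exact eq_one_of_pow (sq y) this hm
  have hb := k .a .b 5 (by decide) rfl ha
  have hc := k .b .c 3 (by decide) rfl hb
  have hf := k .b .f 3 (by decide) rfl hb
  have hg := k .b .g 3 (by decide) rfl hb
  have he : gSuz .e = 1 := by
    rw [hb, hc, one_mul, one_mul, mul_one, ← pow_two, sq, one_pow, one_mul] at r4
    exact eq_one_of_pow (sq _) r4 rfl
  have hd := k .e .d 3 (by decide) rfl he
  exact subsingleton_of_forall fun x => by cases x <;> assumption

local notation "gON" => gn ON.edges ON.extra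

theorem nc_ON [Finite ON] (h : ¬ IsMulCommutative ON) : NC ON := by
  refine (cox_tri' (edges := ON.edges) (extra := ON.extra)
    .a .b .e .f (by decide)).resolve_right fun e => h (comm_of_subsingleton (G := ON) ?_)
  have r0 : gON .a * gON .f * (gON .g ^ 2)⁻¹ = 1 := extra_rel 0 (by decide)
  have r1 : gON .a * gON .f * ((gON .c * gON .d) ^ 4)⁻¹ = 1 := extra_rel 1 (by decide)
  have r4 : (gON .b * gON .c * gON .d * gON .g) ^ 5 = 1 := extra_rel 4 (by decide)
  have r5 : gON .g * gON .b * ((gON .c)⁻¹ * gON .g * gON .c) *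
      ((gON .b)⁻¹ * gON .g * gON .b) * ((gON .c)⁻¹ * gON .g * gON .c) = 1 := extra_rel 5 (by decide)
  have h1 : (gON .c * gON .d) ^ 2 = 1 := by
    rcases e with e | e
    · exact cox_prop e .c (by decide) ▸ cox_rel ON.Gen.b .d (by decide)
    · exact cox_prop e.symm .d (by decide) ▸ cox_rel ON.Gen.c .e (by decide)
  rw [show 4 = 2 * 2 from rfl, pow_mul, h1, one_pow, inv_one, mul_one] at r1
  rw [r1, one_mul, inv_eq_one] at r0
  have sf := cox_sq (edges := ON.edges) (extra := ON.extra) .f (by decide)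
  have e1 : gON .a = gON .f := mul_right_cancel (r1.trans sf.symm)
  have e2 := eq_of_forced (l := [.a, .f]) (m := [.b, .c, .e, .d]) (by decide) (g := gON .f)
    (by simp [e1])
  simp only [List.forall_mem_cons] at e2
  obtain ⟨hb, hc, he, hd, -⟩ := e2
  rw [hb, hc, inv_eq_of_mul_eq_one_left sf] at r5
  rw [hb, hc, hd, sf, one_mul] at r4
  simp only [← mul_assoc] at r5
  rw [sq] at r0
  simp only [mul_assoc _ (gON ON.Gen.f) (gON ON.Gen.f), sf, r0, mul_one, one_mul] at r5
  rw [r5, one_mul] at r4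
  have hg := eq_one_of_pow ((sq _).trans r0) r4 rfl
  rw [r5] at e1 hb hc he hd
  exact subsingleton_of_forall fun x => by cases x <;> assumption

theorem nc_Th [Finite Th] (h : ¬ IsMulCommutative Th) : NC Th := by
  by_contra h0
  refine h (comm_of_subsingleton (G := Th) ?_)
  obtain ⟨g, hg⟩ : ∃ g, g = gn Th.edges Th.extra := ⟨_, rfl⟩
  have r0 : g .a ^ 2 = 1 := hg ▸ extra_rel 0 (by decide)
  have r1 : g .b ^ 2 = 1 := hg ▸ extra_rel 1 (by decide)
  have r2 : g .c ^ 2 = 1 := hg ▸ extra_rel 2 (by decide)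
  have r3 : g .d ^ 2 = 1 := hg ▸ extra_rel 3 (by decide)
  have r5 : (g .a * g .b) ^ 3 = 1 := hg ▸ extra_rel 5 (by decide)
  have r7 : (g .b * g .c) ^ 3 = 1 := hg ▸ extra_rel 7 (by decide)
  have r8 : (g .b * g .d) ^ 2 = 1 := hg ▸ extra_rel 8 (by decide)
  have r10 : g .a * ((g .c * g .d) ^ 4)⁻¹ = 1 := hg ▸ extra_rel 10 (by decide)
  have r12 : (g .d * g .e) ^ 3 = 1 := hg ▸ extra_rel 12 (by decide)
  have r14 : g .s ^ 7 = 1 := hg ▸ extra_rel 14 (by decide)
  have r18 : (g .s * g .d) ^ 2 = 1 := hg ▸ extra_rel 18 (by decide)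
  have r20 : g .t ^ 3 = 1 := hg ▸ extra_rel 20 (by decide)
  have r21 : (g .t)⁻¹ * (g .a)⁻¹ * g .t * g .a = 1 := hg ▸ extra_rel 21 (by decide)
  have r22 : (g .t)⁻¹ * (g .b)⁻¹ * g .t * g .b = 1 := hg ▸ extra_rel 22 (by decide)
  have r26 : (g .t)⁻¹ * g .s * g .t * (g .s ^ 2)⁻¹ = 1 := hg ▸ extra_rel 26 (by decide)
  have r27 : g .u ^ 2 * (g .a * g .c)⁻¹ = 1 := hg ▸ extra_rel 27 (by decide)
  have r32 : ((g .u)⁻¹ * ((g .b)⁻¹ * (g .a * g .c) * g .b)⁻¹ * g .u * ((g .b)⁻¹ * (g .a * g .c) * g .b)) *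
      (g .e)⁻¹ = 1 := hg ▸ extra_rel 32 (by decide)
  have r34 : ((g .u)⁻¹ * g .t * g .u) * ((g .t)⁻¹)⁻¹ = 1 := hg ▸ extra_rel 34 (by decide)
  have r36 : (g .a * g .c) * ((g .u * g .s) ^ 3)⁻¹ = 1 := hg ▸ extra_rel 36 (by decide)
  have cm : ∀ {x y : Th}, x⁻¹ * y⁻¹ * x * y = 1 → Commute x y := fun {x y} e => by
    rw [← mul_inv_rev, mul_assoc, inv_mul_eq_one] at e
    exact e.symm
  rw [mul_inv_eq_one] at r10
  have ha : g .a = 1 := by
    by_cases ht : g .t = 1
    · have hs : g .s = 1 := by simpa [ht, sq] using r26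
      have hd : g .d = 1 → g .a = 1 := fun hd => by
        rw [r10, hd, mul_one, show 4 = 2 * 2 from rfl, pow_mul, r2, one_pow]
      have r19 : (g .e)⁻¹ * (g .s)⁻¹ * g .e * g .s * ((g .s ^ 3)⁻¹ * g .e * g .s ^ 3)⁻¹ = 1 :=
        hg ▸ extra_rel 19 (by decide)
      have he : g .e = 1 := by simpa [hs] using r19
      exact hd (eq_one_of_pow r3 (by simpa [he] using r12) rfl)
    have t1 : Tri (g .a) (g .b) := ⟨(sq _).symm.trans r0, (sq _).symm.trans r1, r5⟩
    have e1 : g .a = g .b := by_contra fun e => h0 (NC.of_wit Nat.prime_three (by decide) (j := MonoidHom.id _)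
      (y := g .a * g .b) Function.injective_id ⟨_, rfl⟩ ⟨_, rfl⟩ r20 r5 ((cm r21).mul_right (cm r22)) ht (cm r21)
      fun e' =>
        e (t1.eq_of_commute (mul_left_cancel (a := g .a) (by rw [← mul_assoc, ← mul_assoc, e'.eq, mul_assoc]))))
    have e2 : Commute (g .b) (g .c) := by
      have c2 := (sq _).symm.trans r2
      have h1 : g .c * (g .c * g .d) * (g .c)⁻¹ = (g .c * g .d)⁻¹ := by
        rw [← mul_assoc, c2, one_mul, mul_inv_rev, inv_eq_of_mul_eq_one_left ((sq _).symm.trans r3)]
      have h2 : g .c * g .a * (g .c)⁻¹ = g .a := by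
        rw [r10, ← conj_pow, h1, inv_pow, ← r10, inv_eq_of_mul_eq_one_left t1.l]
      rw [← e1]
      exact (mul_inv_eq_iff_eq_mul.1 h2).symm
    have e3 := (Tri.mk t1.r ((sq _).symm.trans r2) r7).eq_of_commute e2
    rw [r10, ← e3, show 4 = 2 * 2 from rfl, pow_mul, r8, one_pow]
  have hb : g .b = 1 := eq_one_of_pow r1 (by simpa [ha] using r5) rfl
  have hc : g .c = 1 := eq_one_of_pow r2 (by simpa [hb] using r7) rfl
  have he : g .e = 1 := by simpa [ha, hb, hc] using r32
  have hd : g .d = 1 := eq_one_of_pow r3 (by simpa [he] using r12) rfl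
  have hs : g .s = 1 := eq_one_of_pow (m := 2) (by simpa [hd] using r18) r14 rfl
  have hu : g .u = 1 :=
    eq_one_of_pow (m := 2) (n := 3) (by simpa [ha, hc] using r27) (by simpa [ha, hc, hs] using r36) rfl
  have ht : g .t = 1 := eq_one_of_pow (m := 2) (by simpa [hu, sq] using r34) r20 rfl
  subst hg
  exact subsingleton_of_forall fun x => by cases x <;> assumption

end CL.QT
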